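import Mathlib

/-!
# Signs of permutations on invariant subsets

For a permutation `π` preserving a subset `W` of a finite type, `res W π` acts as `π` on `W` and as
the identity elsewhere.  We record multiplicativity, behaviour under disjoint unions, conjugation and
the "swap formula" for a permutation that exchanges two disjoint subsets.
-/

set_option autoImplicit false
set_option linter.unusedSectionVars false
set_option linter.unusedVariables false
set_option linter.style.haveILetI false

namespace Cfsg.Agent.Lib.SignCover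

open Equiv Equiv.Perm

variable {Y : Type*}

open Classical in
/-- `π` on `W` (if `W` is invariant), the identity elsewhere. -/
noncomputable def res (W : Set Y) (π : Perm Y) : Perm Y :=
  if h : ∀ y, π y ∈ W ↔ y ∈ W then
    { toFun := fun y => if y ∈ W then π y else y
      invFun := fun y => if y ∈ W then π⁻¹ y else y
      left_inv := by
        intro y
        by_cases hy : y ∈ W
        · have : π y ∈ W := (h y).2 hy
          simp [hy, this]
        · simp [hy]
      right_inv := by
        intro y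
        by_cases hy : y ∈ W
        · have h1 : π⁻¹ y ∈ W := by
            rw [← h]
            simpa using hy
          have h2 : (if π⁻¹ y ∈ W then π (π⁻¹ y) else π⁻¹ y) = y := by
            rw [if_pos h1]
            simp
          simpa [hy] using h2
        · simp [hy] }
  else 1

theorem app_inv (r : Perm Y) (y : Y) : r (r⁻¹ y) = y := by simp

theorem res_apply_mem {W : Set Y} {π : Perm Y} (h : ∀ y, π y ∈ W ↔ y ∈ W) {y : Y} (hy : y ∈ W) :
    res W π y = π y := by
  classical
  simp [res, h, hy]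

theorem res_apply_not_mem {W : Set Y} {π : Perm Y} (h : ∀ y, π y ∈ W ↔ y ∈ W) {y : Y} (hy : y ∉ W) :
    res W π y = y := by
  classical
  simp [res, h, hy]

theorem res_mul {W : Set Y} {π ρ : Perm Y} (h1 : ∀ y, π y ∈ W ↔ y ∈ W) (h2 : ∀ y, ρ y ∈ W ↔ y ∈ W) :
    res W (π * ρ) = res W π * res W ρ := by
  have h3 : ∀ y, (π * ρ) y ∈ W ↔ y ∈ W := fun y => by
    rw [Perm.mul_apply, h1, h2]
  ext y
  by_cases hy : y ∈ W
  · rw [res_apply_mem h3 hy, Perm.mul_apply, Perm.mul_apply, res_apply_mem h2 hy,
      res_apply_mem h1 ((h2 y).2 hy)]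
  · rw [res_apply_not_mem h3 hy, Perm.mul_apply, res_apply_not_mem h2 hy, res_apply_not_mem h1 hy]

theorem res_union {W₁ W₂ : Set Y} {π : Perm Y} (hd : Disjoint W₁ W₂) (h1 : ∀ y, π y ∈ W₁ ↔ y ∈ W₁)
    (h2 : ∀ y, π y ∈ W₂ ↔ y ∈ W₂) : res (W₁ ∪ W₂) π = res W₁ π * res W₂ π := by
  have h3 : ∀ y, π y ∈ W₁ ∪ W₂ ↔ y ∈ W₁ ∪ W₂ := fun y => by
    simp only [Set.mem_union, h1, h2]
  ext y
  rw [Perm.mul_apply]
  by_cases hy2 : y ∈ W₂
  · have hy1 : y ∉ W₁ := Set.disjoint_right.mp hd hy2
    have hy2' : π y ∉ W₁ := fun h => hy1 ((h1 y).1 h)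
    rw [res_apply_mem h3 (Or.inr hy2), res_apply_mem h2 hy2, res_apply_not_mem h1 hy2']
  · rw [res_apply_not_mem h2 hy2]
    by_cases hy1 : y ∈ W₁
    · rw [res_apply_mem h3 (Or.inl hy1), res_apply_mem h1 hy1]
    · rw [res_apply_not_mem h1 hy1, res_apply_not_mem h3 (by simp [hy1, hy2])]

theorem res_conj {W W' : Set Y} {π r : Perm Y} (hr : ∀ y, r y ∈ W' ↔ y ∈ W)
    (h : ∀ y, π y ∈ W' ↔ y ∈ W') :
    res W' π = r * res W (r⁻¹ * π * r) * r⁻¹ := by
  have h2 : ∀ y, (r⁻¹ * π * r) y ∈ W ↔ y ∈ W := by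
    intro y
    rw [← hr, Perm.mul_apply, Perm.mul_apply, app_inv, h, hr]
  ext y
  have hy' : r⁻¹ y ∈ W ↔ y ∈ W' := by rw [← hr, app_inv]
  rw [Perm.mul_apply, Perm.mul_apply]
  by_cases hy : y ∈ W'
  · rw [res_apply_mem h hy, res_apply_mem h2 (hy'.2 hy)]
    simp
  · rw [res_apply_not_mem h hy, res_apply_not_mem h2 (fun h3 => hy (hy'.1 h3))]
    simp

theorem res_univ (π : Perm Y) : res Set.univ π = π := by
  ext y
  rw [res_apply_mem (by simp) (Set.mem_univ y)]

theorem res_empty (π : Perm Y) : res (∅ : Set Y) π = 1 := by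
  ext y
  rw [res_apply_not_mem (by simp) (Set.notMem_empty y)]
  rfl

/-- If `π` fixes every point of `W`, then `res W π` is trivial. -/
theorem res_eq_one {W : Set Y} {π : Perm Y} (h : ∀ y ∈ W, π y = y) : res W π = 1 := by
  have hinv : ∀ y, π y ∈ W ↔ y ∈ W := by
    intro y
    constructor
    · intro hy
      have := h _ hy
      rwa [(π.injective this)] at hy
    · intro hy
      rwa [h y hy]
  ext y
  by_cases hy : y ∈ W
  · rw [res_apply_mem hinv hy, h y hy]
    rfl
  · rw [res_apply_not_mem hinv hy]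
    rfl

variable [DecidableEq Y] [Fintype Y]

/-- Sign of `res` under conjugation. -/
theorem sign_res_conj {W W' : Set Y} {π r : Perm Y} (hr : ∀ y, r y ∈ W' ↔ y ∈ W)
    (h : ∀ y, π y ∈ W' ↔ y ∈ W') :
    sign (res W' π) = sign (res W (r⁻¹ * π * r)) := by
  rw [res_conj hr h, Perm.sign_mul, Perm.sign_mul, sign_inv]
  generalize sign (res W (r⁻¹ * π * r)) = a
  generalize sign r = b
  rw [mul_comm b a, mul_assoc, Int.units_mul_self, mul_one]

/-- A product of `|T|` disjoint transpositions `y ↔ r y`. -/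
theorem exists_swaps (W W' : Set Y) (r : Perm Y) (hd : Disjoint W W') (h1 : ∀ y, r y ∈ W' ↔ y ∈ W)
    (T : Finset Y) (hT : ∀ y ∈ T, y ∈ W) :
    ∃ w : Perm Y, (∀ y ∈ T, w y = r y) ∧ (∀ y ∈ T, w (r y) = y) ∧
      (∀ y, y ∉ T → (∀ t ∈ T, r t ≠ y) → w y = y) ∧ sign w = (-1) ^ T.card := by
  induction T using Finset.induction_on with
  | empty =>
    exact ⟨1, by simp, by simp, by simp, by simp⟩
  | insert a T ha ih =>
    obtain ⟨w, hw1, hw2, hw3, hw4⟩ := ih fun y hy => hT y (Finset.mem_insert_of_mem hy)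
    have haW : a ∈ W := hT a (Finset.mem_insert_self a T)
    have hra : r a ∈ W' := (h1 a).2 haW
    have hne : a ≠ r a := fun h => Set.disjoint_left.mp hd haW (h ▸ hra)
    have hTW : ∀ t ∈ T, t ∈ W := fun y hy => hT y (Finset.mem_insert_of_mem hy)
    have hrt : ∀ t ∈ T, r t ∈ W' := fun t ht => (h1 t).2 (hTW t ht)
    have hfixa : w a = a := hw3 a ha fun t ht h => Set.disjoint_left.mp hd haW (h ▸ hrt t ht)
    have hfixra : w (r a) = r a := hw3 (r a)
      (fun h => Set.disjoint_left.mp hd (hTW _ h) hra)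
      (fun t ht h => ha (r.injective h ▸ ht))
    refine ⟨swap a (r a) * w, ?_, ?_, ?_, ?_⟩
    · intro y hy
      rw [Finset.mem_insert] at hy
      rcases hy with rfl | hy
      · rw [Perm.mul_apply, hfixa, swap_apply_left]
      · rw [Perm.mul_apply, hw1 y hy]
        apply swap_apply_of_ne_of_ne
        · intro h
          exact Set.disjoint_left.mp hd haW (h ▸ hrt y hy)
        · intro h
          exact ha (r.injective h ▸ hy)
    · intro y hy
      rw [Finset.mem_insert] at hy
      rcases hy with rfl | hy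
      · rw [Perm.mul_apply, hfixra, swap_apply_right]
      · rw [Perm.mul_apply, hw2 y hy]
        apply swap_apply_of_ne_of_ne
        · rintro rfl
          exact ha hy
        · intro h
          exact Set.disjoint_left.mp hd (hTW y hy) (h ▸ hra)
    · intro y hy1 hy2
      rw [Finset.mem_insert, not_or] at hy1
      rw [Perm.mul_apply, hw3 y hy1.2 fun t ht => hy2 t (Finset.mem_insert_of_mem ht)]
      apply swap_apply_of_ne_of_ne hy1.1
      intro h
      exact hy2 a (Finset.mem_insert_self a T) h.symm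
    · rw [Perm.sign_mul, hw4, sign_swap hne, Finset.card_insert_of_notMem ha, pow_succ']

/-- **Swap formula**. -/
theorem sign_res_swap {W W' : Set Y} {r : Perm Y} (hd : Disjoint W W') (h1 : ∀ y, r y ∈ W' ↔ y ∈ W)
    (h2 : ∀ y, r y ∈ W ↔ y ∈ W') :
    sign (res (W ∪ W') r) = sign (res W (r * r)) * (-1) ^ W.ncard := by
  classical
  obtain ⟨w, hw1, hw2, hw3, hw4⟩ := exists_swaps W W' r hd h1 W.toFinset (by simp)
  have hrr : ∀ y, (r * r) y ∈ W ↔ y ∈ W := fun y => by
    rw [Perm.mul_apply, h2, h1]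
  have h3 : ∀ y, r y ∈ W ∪ W' ↔ y ∈ W ∪ W' := fun y => by
    simp only [Set.mem_union, h1, h2]
    tauto
  have hdecomp : res (W ∪ W') r = res W (r * r) * w := by
    ext y
    rw [Perm.mul_apply]
    by_cases hy : y ∈ W
    · have hyT : y ∈ W.toFinset := by simpa using hy
      rw [hw1 y hyT, res_apply_mem h3 (Or.inl hy), res_apply_not_mem hrr]
      exact fun h => Set.disjoint_left.mp hd h ((h1 y).2 hy)
    · by_cases hy' : y ∈ W'
      · -- `y = r t` with `t ∈ W`
        have hyt : r⁻¹ y ∈ W := by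
          rw [← h1, app_inv]
          exact hy'
        have hT : r⁻¹ y ∈ W.toFinset := by simpa using hyt
        have h5 := hw2 _ hT
        rw [app_inv] at h5
        rw [h5, res_apply_mem h3 (Or.inr hy'), res_apply_mem hrr hyt]
        simp [Perm.mul_apply]
      · have hyT : y ∉ W.toFinset := by simpa using hy
        have h6 : ∀ t ∈ W.toFinset, r t ≠ y := by
          intro t ht h
          apply hy'
          rw [← h]
          exact (h1 t).2 (by simpa using ht)
        rw [hw3 y hyT h6, res_apply_not_mem hrr hy, res_apply_not_mem h3 (by simp [hy, hy'])]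
  rw [hdecomp, Perm.sign_mul, hw4, Set.ncard_eq_toFinset_card']

end Cfsg.Agent.Lib.SignCover
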