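import Mathlib
import Cfsg.Agent.Lib.SignCover.Basic
import Cfsg.Agent.Lib.PGroup.FrattiniBasis

/-!
# Signs on orbits of 2-groups

`sg W a` is the sign of `a` on an invariant subset `W`.  For a 2-group `Γ` acting on a finite set we
compute the sign on an orbit through a subgroup of index two which contains the stabilizer; this gives
a recursion that shows the triviality of the sign for orbits under large "class two" normal subgroups.
-/

set_option autoImplicit false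
set_option linter.unusedSectionVars false
set_option linter.unusedVariables false
set_option linter.style.haveILetI false

namespace Cfsg.Agent.Lib.SignCover

open Equiv Equiv.Perm Subgroup

section Idx

variable {A : Type*} [Group A] {M Γ : Subgroup A}

theorem mul_mem_iff2 (hi : M.relIndex Γ = 2) {a b : A} (ha : a ∈ Γ) (hb : b ∈ Γ) :
    a * b ∈ M ↔ (a ∈ M ↔ b ∈ M) := by
  have := mul_mem_iff_of_index_two (H := M.subgroupOf Γ) hi (a := ⟨a, ha⟩) (b := ⟨b, hb⟩)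
  simpa [mem_subgroupOf] using this

theorem conj_mem2 (hi : M.relIndex Γ = 2) {g m : A} (hg : g ∈ Γ) (hm : m ∈ M) (hm' : m ∈ Γ) :
    g⁻¹ * m * g ∈ M := by
  rw [mul_mem_iff2 hi (Γ.mul_mem (Γ.inv_mem hg) hm') hg, mul_mem_iff2 hi (Γ.inv_mem hg) hm',
    inv_mem_iff]
  tauto

theorem sq_mem2 (hi : M.relIndex Γ = 2) {a : A} (ha : a ∈ Γ) : a * a ∈ M := by
  rw [mul_mem_iff2 hi ha ha]

theorem comm_mem2 (hi : M.relIndex Γ = 2) {a b : A} (ha : a ∈ Γ) (hb : b ∈ Γ) :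
    a⁻¹ * (b⁻¹ * a * b) ∈ M := by
  rw [mul_mem_iff2 hi (Γ.inv_mem ha) (Γ.mul_mem (Γ.mul_mem (Γ.inv_mem hb) ha) hb),
    mul_mem_iff2 hi (Γ.mul_mem (Γ.inv_mem hb) ha) hb, mul_mem_iff2 hi (Γ.inv_mem hb) ha,
    inv_mem_iff, inv_mem_iff]
  tauto

theorem exists_not_mem2 (hi : M.relIndex Γ = 2) : ∃ r ∈ Γ, r ∉ M := by
  by_contra hcon
  push Not at hcon
  have : M.relIndex Γ = 1 := Subgroup.relIndex_eq_one.mpr hcon
  omega

theorem relIndex_inf_two (hi : M.relIndex Γ = 2) {E : Subgroup A} (hE : E ≤ Γ) {r : A} (hr : r ∈ E)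
    (hrM : r ∉ M) : (E ⊓ M).relIndex E = 2 := by
  have h1 : (E ⊓ M).relIndex E = M.relIndex E := by
    rw [inf_comm, Subgroup.inf_relIndex_right]
  rw [h1]
  change (M.subgroupOf E).index = 2
  rw [Subgroup.index_eq_two_iff]
  refine ⟨⟨r, hr⟩, fun b => ?_⟩
  have h2 := mul_mem_iff2 hi (hE b.2) (hE hr)
  simp only [Subgroup.mem_subgroupOf, MulMemClass.coe_mul]
  rw [h2]
  tauto

theorem card_eq_two_mul (hi : M.relIndex Γ = 2) (hM : M ≤ Γ) : Nat.card Γ = 2 * Nat.card M := by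
  have h1 := (M.subgroupOf Γ).card_mul_index
  have h2 : (M.subgroupOf Γ).index = 2 := hi
  rw [h2] at h1
  have h3 : Nat.card (M.subgroupOf Γ) = Nat.card M :=
    Nat.card_congr (Subgroup.subgroupOfEquivOfLe hM).toEquiv
  rw [h3] at h1
  omega

theorem exists_index_two [Finite A] (hΓ : IsPGroup 2 Γ) {S : Subgroup A} (hS : S ≤ Γ) (hne : ¬ Γ ≤ S) :
    ∃ M : Subgroup A, S ≤ M ∧ M ≤ Γ ∧ M.relIndex Γ = 2 := by
  haveI : Fact (Nat.Prime 2) := ⟨Nat.prime_two⟩
  have hS' : S.subgroupOf Γ ≠ ⊤ := fun h => hne (Subgroup.subgroupOf_eq_top.mp h)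
  obtain hh | ⟨M', hM', hle⟩ := eq_top_or_exists_le_coatom (S.subgroupOf Γ)
  · exact absurd hh hS'
  refine ⟨M'.map Γ.subtype, ?_, ?_, ?_⟩
  · intro s hs
    exact ⟨⟨s, hS hs⟩, hle (Subgroup.mem_subgroupOf.mpr hs), rfl⟩
  · exact Subgroup.map_subtype_le M'
  · change ((M'.map Γ.subtype).subgroupOf Γ).index = 2
    have h1 : (M'.map Γ.subtype).subgroupOf Γ = M' :=
      Subgroup.comap_map_eq_self_of_injective Γ.subtype_injective M'
    rw [h1]
    exact Cfsg.Agent.Lib.PGroup.FrattiniBasis.coatom_index hΓ hM'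

end Idx

variable {A Y : Type*} [Group A] [MulAction A Y] [DecidableEq Y] [Fintype Y]

/-- The sign of `a` on an invariant set `W`. -/
noncomputable def sg (W : Set Y) (a : A) : ℤˣ := sign (res W (MulAction.toPerm a))

/-- `W` is invariant under `a`. -/
def IsInv (W : Set Y) (a : A) : Prop := ∀ y, a • y ∈ W ↔ y ∈ W

/-- The orbit of `y` under `Γ`, as a set. -/
def O (Γ : Subgroup A) (y : Y) : Set Y := {w | ∃ g ∈ Γ, g • y = w}

/-- The translate of `W` by `r`. -/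
def tr (r : A) (W : Set Y) : Set Y := {w | r⁻¹ • w ∈ W}

theorem toPerm_mul (a b : A) : (MulAction.toPerm (a * b) : Perm Y) = MulAction.toPerm a * MulAction.toPerm b := by
  ext y
  simp [mul_smul]

theorem sg_mul {W : Set Y} {a b : A} (ha : IsInv W a) (hb : IsInv W b) :
    sg W (a * b) = sg W a * sg W b := by
  unfold sg
  rw [toPerm_mul, res_mul (π := MulAction.toPerm a) (ρ := MulAction.toPerm b) ha hb, Perm.sign_mul]

theorem sg_one (W : Set Y) : sg W (1 : A) = 1 := by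
  unfold sg
  rw [res_eq_one (by simp), Perm.sign_one]

theorem sg_eq_one_of_fix {W : Set Y} {a : A} (h : ∀ y ∈ W, a • y = y) : sg W a = 1 := by
  unfold sg
  rw [res_eq_one (π := MulAction.toPerm a) (by simpa using h), Perm.sign_one]

theorem sg_union {W₁ W₂ : Set Y} {a : A} (hd : Disjoint W₁ W₂) (h1 : IsInv W₁ a) (h2 : IsInv W₂ a) :
    sg (W₁ ∪ W₂) a = sg W₁ a * sg W₂ a := by
  unfold sg
  rw [res_union (π := MulAction.toPerm a) hd h1 h2, Perm.sign_mul]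

theorem sg_tr {W : Set Y} {a r : A} (h : IsInv (tr r W) a) : sg (tr r W) a = sg W (r⁻¹ * a * r) := by
  unfold sg
  have h1 : ∀ y, (MulAction.toPerm r : Perm Y) y ∈ tr r W ↔ y ∈ W := by
    intro y
    simp [tr]
  rw [sign_res_conj (π := MulAction.toPerm a) h1 h]
  congr 2
  ext y
  simp [mul_smul]

theorem sg_swap {W : Set Y} {r : A} (hd : Disjoint W (tr r W)) (h : IsInv W (r * r)) :
    sg (W ∪ tr r W) r = sg W (r * r) * (-1) ^ W.ncard := by
  unfold sg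
  have h1 : ∀ y, (MulAction.toPerm r : Perm Y) y ∈ tr r W ↔ y ∈ W := by
    intro y
    simp [tr]
  have h2 : ∀ y, (MulAction.toPerm r : Perm Y) y ∈ W ↔ y ∈ tr r W := by
    intro y
    have := h (r⁻¹ • y)
    simp only [mul_smul, smul_inv_smul] at this
    exact this
  rw [sign_res_swap hd h1 h2, toPerm_mul]

theorem ncard_tr (r : A) (W : Set Y) : (tr r W).ncard = W.ncard := by
  have : tr r W = (fun w => r • w) '' W := by
    ext w
    simp only [tr, Set.mem_ofPred_eq, Set.mem_image]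
    constructor
    · intro h
      exact ⟨_, h, smul_inv_smul r w⟩
    · rintro ⟨v, hv, rfl⟩
      simpa using hv
  rw [this, Set.ncard_image_of_injective _ (MulAction.injective r)]

section Orbits

variable {Γ M : Subgroup A} {y : Y} {g : A}

theorem mem_O_self (y : Y) (Γ : Subgroup A) : y ∈ O Γ y := ⟨1, Γ.one_mem, one_smul _ _⟩

theorem O_mono {Γ₁ Γ₂ : Subgroup A} (h : Γ₁ ≤ Γ₂) (y : Y) : O Γ₁ y ⊆ O Γ₂ y := by
  rintro _ ⟨g, hg, rfl⟩
  exact ⟨g, h hg, rfl⟩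

theorem O_inv (hg : g ∈ Γ) (y : Y) : IsInv (O Γ y) g := by
  intro w
  constructor
  · rintro ⟨a, ha, h⟩
    refine ⟨g⁻¹ * a, Γ.mul_mem (Γ.inv_mem hg) ha, ?_⟩
    rw [mul_smul, h, inv_smul_smul]
  · rintro ⟨a, ha, rfl⟩
    exact ⟨g * a, Γ.mul_mem hg ha, mul_smul _ _ _⟩

theorem O_eq_orbit (Γ : Subgroup A) (y : Y) : O Γ y = MulAction.orbit ↥Γ y := by
  ext w
  constructor
  · rintro ⟨g, hg, rfl⟩
    exact ⟨⟨g, hg⟩, rfl⟩
  · rintro ⟨g, rfl⟩
    exact ⟨g, g.2, rfl⟩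

theorem O_two_pow (hΓ : IsPGroup 2 Γ) (y : Y) : ∃ n, (O Γ y).ncard = 2 ^ n := by
  haveI : Fact (Nat.Prime 2) := ⟨Nat.prime_two⟩
  obtain ⟨n, hn⟩ := IsPGroup.card_orbit hΓ y
  refine ⟨n, ?_⟩
  rw [O_eq_orbit, ← Nat.card_coe_set_eq]
  exact hn

theorem O_even (hΓ : IsPGroup 2 Γ) (y : Y) (h : (O Γ y).ncard ≠ 1) : Even (O Γ y).ncard := by
  obtain ⟨n, hn⟩ := O_two_pow hΓ y
  rw [hn] at h ⊢
  cases n with
  | zero => simp at h
  | succ n => exact (Nat.even_pow.2 ⟨even_two, by omega⟩)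

theorem O_ncard_pos (Γ : Subgroup A) (y : Y) : 0 < (O Γ y).ncard :=
  (Set.ncard_pos (Set.toFinite _)).mpr ⟨y, mem_O_self y Γ⟩

theorem O_ncard_mono {Γ₁ Γ₂ : Subgroup A} (h : Γ₁ ≤ Γ₂) (y : Y) : (O Γ₁ y).ncard ≤ (O Γ₂ y).ncard :=
  Set.ncard_le_ncard (O_mono h y) (Set.toFinite _)

/-- The recursion step: hypotheses. -/
structure Step (Γ M : Subgroup A) (y : Y) (r : A) : Prop where
  hM : M ≤ Γ
  hi : M.relIndex Γ = 2
  hS : ∀ g ∈ Γ, g • y = y → g ∈ M
  hr : r ∈ Γ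
  hrM : r ∉ M

variable {r : A}

theorem Step.union (h : Step Γ M y r) : O Γ y = O M y ∪ tr r (O M y) := by
  ext w
  constructor
  · rintro ⟨g, hg, rfl⟩
    by_cases hgM : g ∈ M
    · exact Or.inl ⟨g, hgM, rfl⟩
    · right
      refine ⟨r⁻¹ * g, ?_, mul_smul _ _ _⟩
      rw [mul_mem_iff2 h.hi (Γ.inv_mem h.hr) hg, inv_mem_iff]
      have := h.hrM
      tauto
  · rintro (⟨g, hg, rfl⟩ | ⟨g, hg, hw⟩)
    · exact ⟨g, h.hM hg, rfl⟩
    · refine ⟨r * g, Γ.mul_mem h.hr (h.hM hg), ?_⟩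
      rw [mul_smul, hw, smul_inv_smul]

theorem Step.disj (h : Step Γ M y r) : Disjoint (O M y) (tr r (O M y)) := by
  rw [Set.disjoint_left]
  rintro w ⟨a, ha, rfl⟩ ⟨b, hb, hw⟩
  have h1 : (b⁻¹ * (r⁻¹ * a)) • y = y := by
    rw [mul_smul, mul_smul, ← hw, inv_smul_smul]
  have h2 : b⁻¹ * (r⁻¹ * a) ∈ Γ :=
    Γ.mul_mem (h.hM (M.inv_mem hb)) (Γ.mul_mem (Γ.inv_mem h.hr) (h.hM ha))
  have h3 := h.hS _ h2 h1
  apply h.hrM
  have h4 : r⁻¹ ∈ M := by
    have h5 : r⁻¹ * a ∈ M := by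
      have := M.mul_mem hb h3
      simpa using this
    have := M.mul_mem h5 (M.inv_mem ha)
    simpa using this
  simpa using h4

theorem Step.ncard (h : Step Γ M y r) : (O Γ y).ncard = 2 * (O M y).ncard := by
  rw [h.union, Set.ncard_union_eq h.disj (Set.toFinite _) (Set.toFinite _), ncard_tr]
  omega

theorem Step.invr (h : Step Γ M y r) (hg : g ∈ M) : IsInv (tr r (O M y)) g := by
  intro w
  simp only [tr, Set.mem_ofPred_eq]
  have h1 : r⁻¹ • g • w = (r⁻¹ * g * r) • (r⁻¹ • w) := by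
    simp [mul_smul]
  rw [h1]
  exact O_inv (conj_mem2 h.hi h.hr hg (h.hM hg)) y _

theorem units_sq (a : ℤˣ) : a * a = 1 := Int.units_mul_self a

theorem Step.sg_mem (h : Step Γ M y r) (hg : g ∈ M) :
    sg (O Γ y) g = sg (O M y) (g⁻¹ * (r⁻¹ * g * r)) := by
  rw [h.union, sg_union h.disj (O_inv hg y) (h.invr hg), sg_tr (h.invr hg)]
  have h1 : r⁻¹ * g * r ∈ M := conj_mem2 h.hi h.hr hg (h.hM hg)
  rw [sg_mul (O_inv (M.inv_mem hg) y) (O_inv h1 y)]
  have h2 : sg (O M y) g⁻¹ = sg (O M y) g := by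
    have h3 : sg (O M y) g⁻¹ * sg (O M y) g = 1 := by
      rw [← sg_mul (O_inv (M.inv_mem hg) y) (O_inv hg y), inv_mul_cancel, sg_one]
    have h4 := units_sq (sg (O M y) g)
    exact mul_right_cancel (h3.trans h4.symm)
  rw [h2]

theorem Step.sg_not (h : Step Γ M y r) :
    sg (O Γ y) r = sg (O M y) (r * r) * (-1) ^ (O M y).ncard := by
  rw [h.union]
  exact sg_swap h.disj (O_inv (sq_mem2 h.hi h.hr) y)

end Orbits

/-- **General recursion.** -/
theorem sg_general [Finite A] {C : Set A} {E : Subgroup A} {y : Y} (h1 : 4 ≤ (O E y).ncard)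
    (hC2 : ∀ a ∈ E, ∀ b ∈ E, a⁻¹ * (b⁻¹ * a * b) ∈ C)
    (hC3 : ∀ e ∈ E, e * e ∈ C)
    (hC4 : ∀ L : Subgroup A, L ≤ E → L.relIndex E = 2 → (∀ l ∈ E, l • y = y → l ∈ L) →
      ∀ c ∈ C, c ∈ L → sg (O L y) c = 1) :
    ∀ (n : ℕ) (Γ : Subgroup A), Nat.card Γ = n → IsPGroup 2 Γ → E ≤ Γ →
      (∀ g ∈ Γ, ∀ e ∈ E, g⁻¹ * e * g ∈ E) →
      (∀ s ∈ Γ, s • y = y → ∀ e ∈ E, s⁻¹ * (e⁻¹ * s * e) ∈ C) →
      ∀ g ∈ Γ, sg (O Γ y) g = 1 := by
  intro n
  induction n using Nat.strong_induction_on with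
  | _ n ih =>
    intro Γ hn hΓ hEΓ hnorm hC1 g hg
    by_cases hP : ∀ g ∈ Γ, ∃ e ∈ E, g • y = e • y
    · -- `E` is transitive on the orbit
      have hOeq : O Γ y = O E y := by
        apply Set.Subset.antisymm
        · rintro _ ⟨g, hg, rfl⟩
          obtain ⟨e, he, hge⟩ := hP g hg
          exact ⟨e, he, hge.symm⟩
        · exact O_mono hEΓ y
      let S : Subgroup A := Γ ⊓ MulAction.stabilizer A y
      have hSΓ : S ≤ Γ := inf_le_left
      have hne : ¬ Γ ≤ S := by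
        intro hle
        have h2 : O E y ⊆ {y} := by
          rintro _ ⟨e, he, rfl⟩
          exact (hle (hEΓ he)).2
        have h3 := Set.ncard_le_ncard h2 (Set.toFinite _)
        rw [Set.ncard_singleton] at h3
        omega
      obtain ⟨M, hSM, hMΓ, hi⟩ := exists_index_two hΓ hSΓ hne
      have hS : ∀ g ∈ Γ, g • y = y → g ∈ M := fun g hg hgy => hSM ⟨hg, hgy⟩
      obtain ⟨r, hr, hrM⟩ := exists_not_mem2 hi
      obtain ⟨r₀, hr₀, hrr⟩ := hP r hr
      have hr₀M : r₀ ∉ M := by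
        intro hm
        have h2 : r₀⁻¹ * r ∈ M := by
          apply hS _ (Γ.mul_mem (Γ.inv_mem (hEΓ hr₀)) hr)
          rw [mul_smul, hrr, inv_smul_smul]
        apply hrM
        have := M.mul_mem hm h2
        simpa using this
      have hst : Step Γ M y r₀ := ⟨hMΓ, hi, hS, hEΓ hr₀, hr₀M⟩
      let L : Subgroup A := E ⊓ M
      have hLE : L ≤ E := inf_le_left
      have hLi : L.relIndex E = 2 := relIndex_inf_two hi hEΓ hr₀ hr₀M
      have hOL : O M y = O L y := by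
        apply Set.Subset.antisymm
        · rintro _ ⟨m, hm, rfl⟩
          obtain ⟨e, he, hme⟩ := hP m (hMΓ hm)
          refine ⟨e, ⟨he, ?_⟩, hme.symm⟩
          have h2 : e⁻¹ * m ∈ M := by
            apply hS _ (Γ.mul_mem (Γ.inv_mem (hEΓ he)) (hMΓ hm))
            rw [mul_smul, hme, inv_smul_smul]
          have := M.mul_mem hm (M.inv_mem h2)
          simpa using this
        · exact O_mono inf_le_right y
      have hν : ∀ c ∈ C, c ∈ L → sg (O M y) c = 1 := by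
        intro c hc hcL
        rw [hOL]
        exact hC4 L hLE hLi (fun l hl hly => ⟨hl, hS l (hEΓ hl) hly⟩) c hc hcL
      have hM2 : ∀ a ∈ Γ, a ∈ M → r₀⁻¹ * a * r₀ ∈ M := fun a ha ham =>
        conj_mem2 hi (hEΓ hr₀) ham ha
      obtain ⟨e, he, hge⟩ := hP g hg
      have hs : e⁻¹ * g ∈ Γ := Γ.mul_mem (Γ.inv_mem (hEΓ he)) hg
      have hsy : (e⁻¹ * g) • y = y := by rw [mul_smul, hge, inv_smul_smul]
      have hsM : e⁻¹ * g ∈ M := hS _ hs hsy
      have hgeq : g = e * (e⁻¹ * g) := by group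
      rw [hgeq, sg_mul (O_inv (hEΓ he) y) (O_inv hs y)]
      have hs1 : sg (O Γ y) (e⁻¹ * g) = 1 := by
        rw [hst.sg_mem hsM]
        apply hν _ (hC1 _ hs hsy r₀ hr₀)
        refine ⟨?_, M.mul_mem (M.inv_mem hsM) (hM2 _ hs hsM)⟩
        have h3 := hnorm _ hs _ (E.inv_mem hr₀)
        have h4 := E.mul_mem h3 hr₀
        have h5 : (e⁻¹ * g)⁻¹ * (r₀⁻¹ * (e⁻¹ * g) * r₀) = (e⁻¹ * g)⁻¹ * r₀⁻¹ * (e⁻¹ * g) * r₀ := by group
        rw [h5]
        exact h4
      have he1 : sg (O Γ y) e = 1 := by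
        by_cases heM : e ∈ M
        · rw [hst.sg_mem heM]
          apply hν _ (hC2 e he r₀ hr₀)
          exact ⟨E.mul_mem (E.inv_mem he) (E.mul_mem (E.mul_mem (E.inv_mem hr₀) he) hr₀),
            M.mul_mem (M.inv_mem heM) (hM2 _ (hEΓ he) heM)⟩
        · have hst2 : Step Γ M y e := ⟨hMΓ, hi, hS, hEΓ he, heM⟩
          rw [hst2.sg_not, hν _ (hC3 e he) ⟨E.mul_mem he he, sq_mem2 hi (hEΓ he)⟩, one_mul]
          have h3 := hst.ncard
          rw [hOeq] at h3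
          have h4 : (O M y).ncard ≠ 1 := by omega
          exact (O_even (hΓ.to_le hMΓ) y h4).neg_one_pow
      rw [hs1, he1, one_mul]
    · -- `E` is not transitive
      push Not at hP
      obtain ⟨g₀, hg₀, hg₀'⟩ := hP
      let P : Subgroup A :=
        { carrier := {g | g ∈ Γ ∧ ∃ e ∈ E, g • y = e • y}
          mul_mem' := by
            rintro a b ⟨ha, ea, hea⟩ ⟨hb, eb, heb⟩
            refine ⟨Γ.mul_mem ha hb, a * eb * a⁻¹ * ea, E.mul_mem ?_ hea.1, ?_⟩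
            · have := hnorm a⁻¹ (Γ.inv_mem ha) eb heb.1
              simpa using this
            · rw [mul_smul, heb.2, mul_smul, ← hea.2]
              simp [mul_smul]
          one_mem' := ⟨Γ.one_mem, 1, E.one_mem, rfl⟩
          inv_mem' := by
            rintro a ⟨ha, ea, hea⟩
            refine ⟨Γ.inv_mem ha, (a⁻¹ * ea * a)⁻¹, E.inv_mem (hnorm a ha ea hea.1), ?_⟩
            rw [eq_inv_smul_iff, mul_smul, mul_smul, smul_inv_smul, ← hea.2, inv_smul_smul] }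
      have hPΓ : P ≤ Γ := fun g hg => hg.1
      have hne : ¬ Γ ≤ P := fun h => by
        obtain ⟨-, e, he, h2⟩ := h hg₀
        exact hg₀' e he h2
      obtain ⟨M, hPM, hMΓ, hi⟩ := exists_index_two hΓ hPΓ hne
      have hS : ∀ g ∈ Γ, g • y = y → g ∈ M := fun g hg hgy =>
        hPM ⟨hg, 1, E.one_mem, by rw [hgy, one_smul]⟩
      have hEM : E ≤ M := fun e he => hPM ⟨hEΓ he, e, he, rfl⟩
      have hcard := card_eq_two_mul hi hMΓ
      have hMpos : 0 < Nat.card M := Nat.card_pos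
      have hIH : ∀ g ∈ M, sg (O M y) g = 1 :=
        ih (Nat.card M) (by omega) M rfl (hΓ.to_le hMΓ) hEM
          (fun g hg => hnorm g (hMΓ hg)) (fun s hs => hC1 s (hMΓ hs))
      by_cases hgM : g ∈ M
      · obtain ⟨r, hr, hrM⟩ := exists_not_mem2 hi
        have hst : Step Γ M y r := ⟨hMΓ, hi, hS, hr, hrM⟩
        rw [hst.sg_mem hgM]
        exact hIH _ (M.mul_mem (M.inv_mem hgM) (conj_mem2 hi hr hgM hg))
      · have hst : Step Γ M y g := ⟨hMΓ, hi, hS, hg, hgM⟩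
        rw [hst.sg_not, hIH _ (sq_mem2 hi hg), one_mul]
        have h2 : (O M y).ncard ≠ 1 := by
          have := O_ncard_mono hEM y
          omega
        exact (O_even (hΓ.to_le hMΓ) y h2).neg_one_pow

/-- A central involution has trivial sign on an orbit of size at least four. -/
theorem sg_central [Finite A] {Γ : Subgroup A} {ζ : A} {y : Y} (hΓ : IsPGroup 2 Γ) (hζ : ζ ∈ Γ)
    (hc : ∀ e ∈ Γ, ζ * e = e * ζ) (hζ2 : ζ * ζ = 1) (h4 : 4 ≤ (O Γ y).ncard) :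
    sg (O Γ y) ζ = 1 := by
  let S : Subgroup A := Γ ⊓ MulAction.stabilizer A y
  have hSΓ : S ≤ Γ := inf_le_left
  have hne : ¬ Γ ≤ S := by
    intro hle
    have h2 : O Γ y ⊆ {y} := by
      rintro _ ⟨e, he, rfl⟩
      exact (hle he).2
    have h3 := Set.ncard_le_ncard h2 (Set.toFinite _)
    rw [Set.ncard_singleton] at h3
    omega
  obtain ⟨M, hSM, hMΓ, hi⟩ := exists_index_two hΓ hSΓ hne
  have hS : ∀ g ∈ Γ, g • y = y → g ∈ M := fun g hg hgy => hSM ⟨hg, hgy⟩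
  obtain ⟨r, hr, hrM⟩ := exists_not_mem2 hi
  have hst : Step Γ M y r := ⟨hMΓ, hi, hS, hr, hrM⟩
  by_cases hζM : ζ ∈ M
  · rw [hst.sg_mem hζM]
    have : ζ⁻¹ * (r⁻¹ * ζ * r) = 1 := by
      rw [mul_assoc r⁻¹, hc r hr]
      group
    rw [this, sg_one]
  · have hst2 : Step Γ M y ζ := ⟨hMΓ, hi, hS, hζ, hζM⟩
    rw [hst2.sg_not, hζ2, sg_one, one_mul]
    have h3 := hst.ncard
    have h5 : (O M y).ncard ≠ 1 := by omega
    exact (O_even (hΓ.to_le hMΓ) y h5).neg_one_pow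

/-- Orbits of size two: commutators fix the point. -/
theorem fix_of_comm [Finite A] {L : Subgroup A} {y : Y} (hL : IsPGroup 2 L) (h2 : (O L y).ncard = 2)
    {a b : A} (ha : a ∈ L) (hb : b ∈ L) : (a⁻¹ * (b⁻¹ * a * b)) • y = y := by
  let S : Subgroup A := L ⊓ MulAction.stabilizer A y
  have hSΓ : S ≤ L := inf_le_left
  have hne : ¬ L ≤ S := by
    intro hle
    have h3 : O L y ⊆ {y} := by
      rintro _ ⟨e, he, rfl⟩
      exact (hle he).2
    have h4 := Set.ncard_le_ncard h3 (Set.toFinite _)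
    rw [Set.ncard_singleton] at h4
    omega
  obtain ⟨M, hSM, hMΓ, hi⟩ := exists_index_two hL hSΓ hne
  have hS : ∀ g ∈ L, g • y = y → g ∈ M := fun g hg hgy => hSM ⟨hg, hgy⟩
  obtain ⟨r, hr, hrM⟩ := exists_not_mem2 hi
  have hst : Step L M y r := ⟨hMΓ, hi, hS, hr, hrM⟩
  have h3 := hst.ncard
  have h4 : (O M y).ncard = 1 := by omega
  obtain ⟨w, hw⟩ := Set.ncard_eq_one.mp h4
  have hy : y = w := by
    have : y ∈ O M y := mem_O_self y M
    rw [hw] at this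
    exact this
  have hc := comm_mem2 hi ha hb
  have h5 : (a⁻¹ * (b⁻¹ * a * b)) • y ∈ O M y := ⟨_, hc, rfl⟩
  rw [hw] at h5
  exact h5.trans hy.symm

/-- **Main sign theorem.** -/
theorem sg_main [Finite A] {E Γ : Subgroup A} {ζ : A} {y : Y} (hΓ : IsPGroup 2 Γ) (hEΓ : E ≤ Γ)
    (hnorm : ∀ g ∈ Γ, ∀ e ∈ E, g⁻¹ * e * g ∈ E) (hζE : ζ ∈ E)
    (hζc : ∀ e ∈ E, ζ * e = e * ζ) (hζ2 : ζ * ζ = 1)
    (hcomm : ∀ a ∈ E, ∀ b ∈ E, a⁻¹ * (b⁻¹ * a * b) = 1 ∨ a⁻¹ * (b⁻¹ * a * b) = ζ)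
    (hsq : ∀ a ∈ E, a * a = 1 ∨ a * a = ζ)
    (h8 : 8 ≤ (O E y).ncard)
    (hH : ∀ L L' : Subgroup A, L ≤ E → L.relIndex E = 2 → L' ≤ L → L'.relIndex L = 2 → ζ ∈ L' →
      (O L' y).ncard = 2 → ζ • y = y) :
    ∀ g ∈ Γ, sg (O Γ y) g = 1 := by
  refine sg_general (C := Set.univ) (E := E) (y := y) (by omega) (fun _ _ _ _ => trivial)
    (fun _ _ => trivial) ?_ _ Γ rfl hΓ hEΓ hnorm (fun _ _ _ _ _ => trivial)
  intro L hLE hLi hLs c _ hcL
  have hEp : IsPGroup 2 E := hΓ.to_le hEΓ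
  have hLp : IsPGroup 2 L := hEp.to_le hLE
  obtain ⟨r, hr, hrL⟩ := exists_not_mem2 hLi
  have hst : Step E L y r := ⟨hLE, hLi, hLs, hr, hrL⟩
  have hn := hst.ncard
  refine sg_general (C := {1, ζ}) (E := L) (y := y) (by omega) ?_ ?_ ?_ _ L rfl hLp le_rfl ?_ ?_ c hcL
  · intro a ha b hb
    rcases hcomm a (hLE ha) b (hLE hb) with h | h
    · exact Or.inl h
    · exact Or.inr h
  · intro e he
    rcases hsq e (hLE he) with h | h
    · exact Or.inl h
    · exact Or.inr h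
  · intro L' hL'L hL'i hL's c hc hcL'
    rcases hc with rfl | rfl
    · exact sg_one _
    · obtain ⟨r', hr', hrL'⟩ := exists_not_mem2 hL'i
      have hst' : Step L L' y r' := ⟨hL'L, hL'i, hL's, hr', hrL'⟩
      have hn' := hst'.ncard
      have hL'p : IsPGroup 2 L' := hLp.to_le hL'L
      by_cases h2 : (O L' y).ncard = 2
      · have hfix := hH L L' hLE hLi hL'L hL'i hcL' h2
        apply sg_eq_one_of_fix
        rintro _ ⟨l, hl, rfl⟩
        rw [← mul_smul, hζc l (hLE (hL'L hl)), mul_smul, hfix]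
      · apply sg_central hL'p hcL' (fun e he => hζc e (hLE (hL'L he))) hζ2
        have h3 : (O L' y).ncard ≠ 1 := by omega
        obtain ⟨k, hk⟩ := O_even hL'p y h3
        omega
  · intro g hg e he
    exact L.mul_mem (L.mul_mem (L.inv_mem hg) he) hg
  · intro s hs _ e he
    rcases hcomm s (hLE hs) e (hLE he) with h | h
    · exact Or.inl h
    · exact Or.inr h

/-- Signs on invariant sets from signs on orbits. -/
theorem sg_of_orbits {Γ : Subgroup A} :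
    ∀ (n : ℕ) (W : Set Y), W.ncard = n → (∀ g ∈ Γ, IsInv W g) →
      (∀ y ∈ W, ∀ g ∈ Γ, sg (O Γ y) g = 1) → ∀ g ∈ Γ, sg W g = 1 := by
  intro n
  induction n using Nat.strong_induction_on with
  | _ n ih =>
    intro W hn hW hgood g hg
    by_cases hemp : W = ∅
    · subst hemp
      apply sg_eq_one_of_fix
      simp
    obtain ⟨y, hy⟩ := Set.nonempty_iff_ne_empty.mpr hemp
    have hOW : O Γ y ⊆ W := by
      rintro _ ⟨a, ha, rfl⟩
      exact (hW a ha y).2 hy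
    have hdecomp : W = O Γ y ∪ (W \ O Γ y) := (Set.union_sdiff_cancel hOW).symm
    have hinv : ∀ a ∈ Γ, IsInv (W \ O Γ y) a := by
      intro a ha w
      simp only [Set.mem_sdiff]
      rw [hW a ha w, O_inv ha y w]
    have hlt : (W \ O Γ y).ncard < n := by
      rw [← hn]
      apply Set.ncard_lt_ncard _ (Set.toFinite _)
      refine ⟨Set.sdiff_subset, fun h => ?_⟩
      exact (h hy).2 (mem_O_self y Γ)
    have h2 := ih _ hlt (W \ O Γ y) rfl hinv (fun w hw => hgood w hw.1) g hg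
    rw [hdecomp, sg_union Set.disjoint_sdiff_right (O_inv hg y) (hinv g hg), h2, mul_one]
    exact hgood y hy g hg

end Cfsg.Agent.Lib.SignCover
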