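import Mathlib
import Cfsg.Agent.Lib.SignCover.Orbit

/-!
# An index-two subgroup containing all elements whose square is a commutator

If the abelianization of `H` has an element `q` of 2-power order with `q ^ 2 ≠ 1`, then `H` has a
subgroup of index two containing every `u` such that `u ^ 2 ∈ [H, H]`.
-/

set_option autoImplicit false
set_option linter.unusedSectionVars false
set_option linter.unusedVariables false
set_option linter.style.haveILetI false

namespace Cfsg.Agent.Lib.SignCover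

open Subgroup

variable {G : Type*} [Group G]

/-- In a finite abelian group with an element of order `2 ^ (j + 2)`, the 2-torsion and the squares do
not generate. -/
theorem sup_ne_top {A : Type*} [CommGroup A] [Finite A] {q : A} {j : ℕ} (h1 : q ^ 2 ^ (j + 1) ≠ 1)
    (h2 : q ^ 2 ^ (j + 2) = 1) :
    (powMonoidHom 2 : A →* A).ker ⊔ (powMonoidHom 2 : A →* A).range ≠ ⊤ := by
  intro htop
  let B : Subgroup A := (powMonoidHom 2 : A →* A).range
  let f : B → B := fun c => ⟨(c : A) ^ 2, ⟨c, rfl⟩⟩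
  have hsurj : Function.Surjective f := by
    rintro ⟨c, a, rfl⟩
    have ha : a ∈ (powMonoidHom 2 : A →* A).ker ⊔ (powMonoidHom 2 : A →* A).range := by
      rw [htop]
      exact mem_top a
    obtain ⟨t, ht, c', ⟨d, rfl⟩, rfl⟩ := Subgroup.mem_sup.mp ha
    have ht2 : t ^ 2 = 1 := ht
    refine ⟨⟨d ^ 2, ⟨d, rfl⟩⟩, Subtype.ext ?_⟩
    change (d ^ 2) ^ 2 = (powMonoidHom 2 : A →* A) (t * (powMonoidHom 2 : A →* A) d)
    rw [map_mul, powMonoidHom_apply, ht2, one_mul]
    rfl
  have hinj : Function.Injective f := Finite.injective_iff_surjective.mpr hsurj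
  have hb : q ^ 2 ^ (j + 1) ∈ B := by
    refine ⟨q ^ 2 ^ j, ?_⟩
    change (q ^ 2 ^ j) ^ 2 = _
    rw [← pow_mul, pow_succ]
  have h3 : f ⟨_, hb⟩ = f 1 := by
    apply Subtype.ext
    change (q ^ 2 ^ (j + 1)) ^ 2 = (1 : A) ^ 2
    rw [← pow_mul, ← pow_succ, h2, one_pow]
  have h4 := congrArg Subtype.val (hinj h3)
  exact h1 h4

theorem exists_K [Finite G] {H : Subgroup G} (q : Abelianization H) (k : ℕ) (hq : orderOf q = 2 ^ k)
    (hq2 : q ^ 2 ≠ 1) :
    ∃ K : Subgroup G, K.relIndex H = 2 ∧ (∀ u ∈ H, u * u = 1 → u ∈ K) ∧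
      (∀ u ∈ H, ∀ a ∈ H, ∀ b ∈ H, u * u = a⁻¹ * (b⁻¹ * a * b) → u ∈ K) := by
  haveI : Fact (Nat.Prime 2) := ⟨Nat.prime_two⟩
  -- the element of order `2 ^ (j + 2)`
  obtain ⟨j, rfl⟩ : ∃ j, k = j + 2 := by
    match k, hq with
    | 0, hq =>
      exfalso
      apply hq2
      have : q = 1 := orderOf_eq_one_iff.mp (by simpa using hq)
      rw [this, one_pow]
    | 1, hq =>
      exfalso
      apply hq2
      rw [← pow_one 2, ← hq, pow_orderOf_eq_one]
    | j + 2, _ => exact ⟨j, rfl⟩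
  have h1 : q ^ 2 ^ (j + 1) ≠ 1 := by
    intro h
    have h3 := orderOf_dvd_of_pow_eq_one h
    rw [hq] at h3
    have h4 := (Nat.pow_dvd_pow_iff_le_right (by norm_num : 1 < 2)).mp h3
    omega
  have h2 : q ^ 2 ^ (j + 2) = 1 := by
    rw [← hq, pow_orderOf_eq_one]
  set N : Subgroup (Abelianization H) :=
    (powMonoidHom 2 : Abelianization H →* Abelianization H).ker ⊔
      (powMonoidHom 2 : Abelianization H →* Abelianization H).range with hN
  have hNtop : N ≠ ⊤ := sup_ne_top h1 h2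
  have hsqN : ∀ a : Abelianization H, a ^ 2 ∈ N := fun a =>
    (le_sup_right : (powMonoidHom 2 : Abelianization H →* Abelianization H).range ≤ N) ⟨a, rfl⟩
  have hQ : IsPGroup 2 (Abelianization H ⧸ N) := by
    intro u
    obtain ⟨a, rfl⟩ := QuotientGroup.mk_surjective u
    refine ⟨1, ?_⟩
    rw [pow_one, ← QuotientGroup.mk_pow]
    exact (QuotientGroup.eq_one_iff _).mpr (hsqN a)
  have hbot : (⊥ : Subgroup (Abelianization H ⧸ N)) ≠ ⊤ := by
    intro h
    apply hNtop
    rw [eq_top_iff]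
    intro a _
    have h3 : ((a : Abelianization H ⧸ N)) ∈ (⊥ : Subgroup (Abelianization H ⧸ N)) := by
      rw [h]
      exact mem_top _
    exact (QuotientGroup.eq_one_iff _).mp h3
  obtain hh | ⟨M', hM', -⟩ := eq_top_or_exists_le_coatom (⊥ : Subgroup (Abelianization H ⧸ N))
  · exact absurd hh hbot
  have hM'i : M'.index = 2 := Cfsg.Agent.Lib.PGroup.FrattiniBasis.coatom_index hQ hM'
  let φ : H →* Abelianization H ⧸ N := (QuotientGroup.mk' N).comp Abelianization.of
  have hφ : Function.Surjective φ := by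
    intro u
    obtain ⟨a, rfl⟩ := QuotientGroup.mk_surjective u
    obtain ⟨b, rfl⟩ := QuotientGroup.mk_surjective a
    exact ⟨b, rfl⟩
  let KH : Subgroup H := M'.comap φ
  have hKHi : KH.index = 2 := by
    rw [← hM'i]
    exact Subgroup.index_comap_of_surjective M' hφ
  have hKmem : ∀ u : H, (Abelianization.of u) ^ 2 = 1 → u ∈ KH := by
    intro u hu
    have h3 : Abelianization.of u ∈ N :=
      (le_sup_left : (powMonoidHom 2 : Abelianization H →* Abelianization H).ker ≤ N) hu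
    have h4 : φ u = 1 := (QuotientGroup.eq_one_iff _).mpr h3
    change φ u ∈ M'
    rw [h4]
    exact M'.one_mem
  refine ⟨KH.map H.subtype, ?_, ?_, ?_⟩
  · change ((KH.map H.subtype).subgroupOf H).index = 2
    have h3 : (KH.map H.subtype).subgroupOf H = KH :=
      Subgroup.comap_map_eq_self_of_injective H.subtype_injective KH
    rw [h3, hKHi]
  · intro u hu huu
    refine ⟨⟨u, hu⟩, hKmem _ ?_, rfl⟩
    have h3 : (⟨u, hu⟩ : H) * ⟨u, hu⟩ = 1 := Subtype.ext huu
    rw [pow_two, ← map_mul, h3, map_one]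
  · intro u hu a ha b hb huu
    refine ⟨⟨u, hu⟩, hKmem _ ?_, rfl⟩
    have h3 : (⟨u, hu⟩ : H) * ⟨u, hu⟩ =
        (⟨a, ha⟩ : H)⁻¹ * ((⟨b, hb⟩ : H)⁻¹ * ⟨a, ha⟩ * ⟨b, hb⟩) := Subtype.ext huu
    rw [pow_two, ← map_mul, h3, map_mul, map_mul, map_mul, map_inv, map_inv]
    generalize Abelianization.of (⟨a, ha⟩ : H) = x
    generalize Abelianization.of (⟨b, hb⟩ : H) = y
    rw [mul_comm y⁻¹ x, mul_assoc x, inv_mul_cancel, mul_one, inv_mul_cancel]

end Cfsg.Agent.Lib.SignCover
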