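import Mathlib
import Cfsg.Prelude.Def_Transfer
import Cfsg.Agent.Lib.SignCover.Orbit
import Cfsg.Agent.Lib.Transfer.Basic

/-!
# The double cover of a conjugacy class of involutions

For an involution `z` of `G`, with `H = C_G(z)` and `K` of index two in `H`, we let `G × Z/2` act on
the cosets of the graph `K̂` of `H → H/K`.  The sign of this action (the transfer of `H → H/K`, in
disguise) is trivial on `G` if `G` has no quotient of order two, and an element `x ∈ H \ K` acts on the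
two points above `z` by a transposition.
-/

set_option autoImplicit false
set_option linter.unusedSectionVars false
set_option linter.unusedVariables false
set_option linter.style.haveILetI false

namespace Cfsg.Agent.Lib.SignCover

open Equiv Equiv.Perm Subgroup

variable {G : Type*} [Group G]

/-- The group of order two. -/
abbrev C2 : Type := Multiplicative (ZMod 2)

/-- The generator of `C2`. -/
def c₀ : C2 := Multiplicative.ofAdd 1

theorem c2_mul_eq_one_iff : ∀ a b : C2, a * b = 1 ↔ (a = 1 ↔ b = 1) := by decide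

theorem c2_cases : ∀ a : C2, a = 1 ∨ a = c₀ := by decide

theorem c₀_ne : c₀ ≠ 1 := by decide

theorem c2_sq : ∀ a : C2, a * a = 1 := by decide

theorem c2_card : Nat.card C2 = 2 := by
  rw [Nat.card_eq_fintype_card]
  rfl

/-- The graph of `H → H/K`. -/
def Khat (H K : Subgroup G) (hK : K.relIndex H = 2) : Subgroup (G × C2) where
  carrier := {a | a.1 ∈ H ∧ (a.2 = 1 ↔ a.1 ∈ K)}
  mul_mem' := by
    rintro a b ⟨ha, ha'⟩ ⟨hb, hb'⟩
    refine ⟨H.mul_mem ha hb, ?_⟩
    change a.2 * b.2 = 1 ↔ a.1 * b.1 ∈ K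
    rw [c2_mul_eq_one_iff, mul_mem_iff2 hK ha hb, ha', hb']
  one_mem' := ⟨H.one_mem, by simp [K.one_mem]⟩
  inv_mem' := by
    rintro a ⟨ha, ha'⟩
    refine ⟨H.inv_mem ha, ?_⟩
    simp only [Prod.fst_inv, Prod.snd_inv, inv_eq_one, inv_mem_iff]
    exact ha'

theorem mem_Khat {H K : Subgroup G} {hK : K.relIndex H = 2} {a : G × C2} :
    a ∈ Khat H K hK ↔ a.1 ∈ H ∧ (a.2 = 1 ↔ a.1 ∈ K) := Iff.rfl

/-- The covering set. -/
abbrev Cov (H K : Subgroup G) (hK : K.relIndex H = 2) : Type _ := (G × C2) ⧸ Khat H K hK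

section Act

variable {H K : Subgroup G} {hK : K.relIndex H = 2}

/-- The point of the cover given by an element. -/
def mk (H K : Subgroup G) (hK : K.relIndex H = 2) (a : G × C2) : Cov H K hK := (a : (G × C2) ⧸ Khat H K hK)

theorem mk_surj (y : Cov H K hK) : ∃ a, mk H K hK a = y := QuotientGroup.mk_surjective y

theorem smul_mk (b a : G × C2) : b • mk H K hK a = mk H K hK (b * a) := rfl

theorem mk_eq_iff {a b : G × C2} : mk H K hK a = mk H K hK b ↔ a⁻¹ * b ∈ Khat H K hK :=
  QuotientGroup.eq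

theorem fix_iff {b a : G × C2} : b • mk H K hK a = mk H K hK a ↔ a⁻¹ * b * a ∈ Khat H K hK := by
  rw [smul_mk, eq_comm, mk_eq_iff, mul_assoc]

theorem fix_iff' {b a : G × C2} : b • mk H K hK a = mk H K hK a ↔
    (a.1⁻¹ * b.1 * a.1 ∈ H ∧ (b.2 = 1 ↔ a.1⁻¹ * b.1 * a.1 ∈ K)) := by
  rw [fix_iff, mem_Khat]
  have h : (a⁻¹ * b * a).2 = b.2 := by
    simp only [Prod.snd_mul, Prod.snd_inv]
    rw [mul_comm a.2⁻¹, mul_assoc, inv_mul_cancel, mul_one]
  rw [h]
  rfl

theorem sigma_fix {c : C2} {y : Cov H K hK} (h : ((1, c) : G × C2) • y = y) : c = 1 := by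
  obtain ⟨a, rfl⟩ := mk_surj y
  rw [fix_iff'] at h
  simp only [mul_one, inv_mul_cancel] at h
  exact h.2.2 K.one_mem

end Act

section PP

variable {z : G} {K : Subgroup G} {hK : K.relIndex (centralizer ({z} : Set G)) = 2}

theorem mem_H_iff {h : G} : h ∈ centralizer ({z} : Set G) ↔ h * z = z * h := by
  rw [mem_centralizer_singleton_iff]

theorem conj_eq_iff {a b : G} : a * z * a⁻¹ = b * z * b⁻¹ ↔ a⁻¹ * b ∈ centralizer ({z} : Set G) := by
  rw [mem_H_iff]
  constructor
  · intro h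
    have h1 : z = a⁻¹ * b * z * b⁻¹ * a := by
      have : a⁻¹ * (a * z * a⁻¹) * a = a⁻¹ * (b * z * b⁻¹) * a := by rw [h]
      simpa [mul_assoc] using this
    calc a⁻¹ * b * z = a⁻¹ * b * z * b⁻¹ * a * (a⁻¹ * b) := by group
      _ = z * (a⁻¹ * b) := by rw [← h1]
  · intro h
    have h1 : b * z * b⁻¹ = a * (a⁻¹ * b * z) * b⁻¹ := by group
    rw [h1, h]
    group

/-- The involution below a point of the cover. -/
noncomputable def pp (z : G) (K : Subgroup G) (hK : K.relIndex (centralizer ({z} : Set G)) = 2)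
    (y : Cov (centralizer ({z} : Set G)) K hK) : G :=
  (Quotient.out y : G × C2).1 * z * (Quotient.out y : G × C2).1⁻¹

theorem pp_mk (a : G × C2) : pp z K hK (mk _ K hK a) = a.1 * z * a.1⁻¹ := by
  unfold pp
  rw [conj_eq_iff]
  have h1 : mk (centralizer ({z} : Set G)) K hK (Quotient.out (mk _ K hK a) : G × C2) = mk _ K hK a :=
    Quotient.out_eq _
  rw [mk_eq_iff] at h1
  exact h1.1

theorem pp_smul (b : G × C2) (y : Cov (centralizer ({z} : Set G)) K hK) :
    pp z K hK (b • y) = b.1 * pp z K hK y * b.1⁻¹ := by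
  obtain ⟨a, rfl⟩ := mk_surj y
  rw [smul_mk, pp_mk, pp_mk]
  simp only [Prod.fst_mul]
  group

theorem pp_ne_one (hz : z ≠ 1) (y : Cov (centralizer ({z} : Set G)) K hK) : pp z K hK y ≠ 1 := by
  obtain ⟨a, rfl⟩ := mk_surj y
  rw [pp_mk]
  intro h
  apply hz
  have : a.1⁻¹ * (a.1 * z * a.1⁻¹) * a.1 = a.1⁻¹ * 1 * a.1 := by rw [h]
  simpa [mul_assoc] using this

theorem pp_sq (hz : z * z = 1) (y : Cov (centralizer ({z} : Set G)) K hK) :
    pp z K hK y * pp z K hK y = 1 := by
  obtain ⟨a, rfl⟩ := mk_surj y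
  rw [pp_mk]
  calc a.1 * z * a.1⁻¹ * (a.1 * z * a.1⁻¹) = a.1 * (z * z) * a.1⁻¹ := by group
    _ = 1 := by rw [hz]; group

variable [DecidableEq (Cov (centralizer ({z} : Set G)) K hK)] [Fintype (Cov (centralizer ({z} : Set G)) K hK)]

theorem pResidual_sign (hres : Cfsg.pResidual 2 G = ⊤) (x : G) (c : C2) (hc : c = 1) :
    sign (MulAction.toPerm ((x, c) : G × C2) : Perm (Cov (centralizer ({z} : Set G)) K hK)) = 1 := by
  subst hc
  let f : G →* ℤˣ := (Equiv.Perm.sign : Perm (Cov (centralizer ({z} : Set G)) K hK) →* ℤˣ).comp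
    ((MulAction.toPermHom (G × C2) (Cov (centralizer ({z} : Set G)) K hK)).comp (MonoidHom.inl G C2))
  have hp : IsPGroup 2 ℤˣ := fun u => ⟨1, by simp [pow_one, pow_two, Int.units_mul_self]⟩
  have h1 := Cfsg.Agent.Lib.Transfer.Basic.pResidual_le_ker hp f
  rw [hres] at h1
  exact MonoidHom.mem_ker.mp (h1 (mem_top x))

/-- **The contradiction**: if the sign is trivial on all orbits away from `z`, then `x ∈ H \ K` is
impossible. -/
theorem cover_contra (hres : Cfsg.pResidual 2 G = ⊤) {Γ₀ : Subgroup (G × C2)}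
    (hΓH : ∀ a ∈ Γ₀, a.1 ∈ centralizer ({z} : Set G)) {x : G} (hxΓ : ((x, 1) : G × C2) ∈ Γ₀)
    (hxK : x ∉ K)
    (hgood : ∀ y : Cov (centralizer ({z} : Set G)) K hK, pp z K hK y ≠ z → ∀ g ∈ Γ₀, sg (O Γ₀ y) g = 1) :
    False := by
  have hxH : x ∈ centralizer ({z} : Set G) := hΓH _ hxΓ
  let Y := Cov (centralizer ({z} : Set G)) K hK
  let W₀ : Set Y := {y | pp z K hK y = z}
  have hinv₀ : ∀ g ∈ Γ₀, IsInv W₀ g := by
    intro g hg y
    change pp z K hK (g • y) = z ↔ pp z K hK y = z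
    rw [pp_smul]
    have h1 := (mem_H_iff (z := z)).mp (hΓH g hg)
    constructor
    · intro h
      have h2 : g.1⁻¹ * (g.1 * pp z K hK y * g.1⁻¹) * g.1 = pp z K hK y := by group
      rw [← h2, h, mul_assoc, ← h1]
      group
    · intro h
      rw [h, h1]
      group
  have hinv₁ : ∀ g ∈ Γ₀, IsInv W₀ᶜ g := by
    intro g hg y
    simp only [Set.mem_compl_iff, hinv₀ g hg y]
  have h1 : sg W₀ᶜ ((x, 1) : G × C2) = 1 :=
    sg_of_orbits _ W₀ᶜ rfl hinv₁ (fun y hy => hgood y hy) _ hxΓ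
  have h2 : sg (W₀ ∪ W₀ᶜ) ((x, 1) : G × C2) = 1 := by
    rw [Set.union_compl_self]
    unfold sg
    rw [res_univ]
    exact pResidual_sign hres x 1 rfl
  rw [sg_union disjoint_compl_right (hinv₀ _ hxΓ) (hinv₁ _ hxΓ), h1, mul_one] at h2
  -- the two points above `z`
  let y₀ : Y := mk _ K hK 1
  let y₁ : Y := mk _ K hK (1, c₀)
  have h01 : y₀ ≠ y₁ := by
    intro h
    have h3 := (mk_eq_iff.mp h).2
    simp only [inv_one, one_mul] at h3
    exact c₀_ne (h3.2 K.one_mem)
  have hW : ∀ y : Y, y ∈ W₀ ↔ y = y₀ ∨ y = y₁ := by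
    intro y
    obtain ⟨a, rfl⟩ := mk_surj y
    change pp z K hK (mk _ K hK a) = z ↔ _
    rw [pp_mk]
    constructor
    · intro h
      have haH : a.1 ∈ centralizer ({z} : Set G) := by
        rw [mem_H_iff]
        calc a.1 * z = a.1 * z * a.1⁻¹ * a.1 := by group
          _ = z * a.1 := by rw [h]
      by_cases hh : a.2 = 1 ↔ a.1 ∈ K
      · left
        rw [eq_comm, mk_eq_iff]
        refine ⟨?_, ?_⟩
        · simpa using haH
        · simpa using hh
      · right
        rw [eq_comm, mk_eq_iff]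
        refine ⟨?_, ?_⟩
        · simpa using haH
        · have h3 : ∀ c : C2, (c₀⁻¹ * c = 1) ↔ ¬ (c = 1) := by decide
          have h4 : (((1 : G), c₀)⁻¹ * a).2 = c₀⁻¹ * a.2 := by simp
          have h5 : (((1 : G), c₀)⁻¹ * a).1 = a.1 := by simp
          rw [h4, h5, h3]
          tauto
    · intro h
      rcases h with h | h
      · have h3 := ((mk_eq_iff.mp h.symm)).1
        simp only [inv_one, one_mul] at h3
        rw [mem_H_iff.mp h3]
        group
      · have h3 := ((mk_eq_iff.mp h.symm)).1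
        have h5 : (((1 : G), c₀)⁻¹ * a).1 = a.1 := by simp
        rw [h5] at h3
        rw [mem_H_iff.mp h3]
        group
  have hx0 : ((x, 1) : G × C2) • y₀ = y₁ := by
    change mk _ K hK (((x, 1) : G × C2) * 1) = mk _ K hK (1, c₀)
    rw [mk_eq_iff]
    simp only [mul_one]
    refine ⟨?_, ?_⟩
    · simpa using hxH
    · have h4 : (((x, 1) : G × C2)⁻¹ * ((1 : G), c₀)).2 = c₀ := by simp
      have h5 : (((x, 1) : G × C2)⁻¹ * ((1 : G), c₀)).1 = x⁻¹ := by simp
      rw [h4, h5, inv_mem_iff]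
      exact ⟨fun h => absurd h c₀_ne, fun h => absurd h hxK⟩
  have hx1 : ((x, 1) : G × C2) • y₁ = y₀ := by
    have h3 : ∀ c : C2, c * c = 1 := c2_sq
    change mk _ K hK (((x, 1) : G × C2) * (1, c₀)) = mk _ K hK 1
    rw [eq_comm, mk_eq_iff]
    simp only [inv_one, one_mul]
    refine ⟨?_, ?_⟩
    · simpa using hxH
    · have h4 : (((x, 1) : G × C2) * ((1 : G), c₀)).2 = c₀ := by simp
      have h5 : (((x, 1) : G × C2) * ((1 : G), c₀)).1 = x := by simp
      rw [h4, h5]
      exact ⟨fun h => absurd h c₀_ne, fun h => absurd h hxK⟩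
  have hres' : res W₀ (MulAction.toPerm ((x, 1) : G × C2)) = swap y₀ y₁ := by
    ext y
    by_cases hy : y ∈ W₀
    · rw [res_apply_mem (π := MulAction.toPerm ((x, 1) : G × C2)) (hinv₀ _ hxΓ) hy]
      rcases (hW y).1 hy with rfl | rfl
      · rw [swap_apply_left]
        exact hx0
      · rw [swap_apply_right]
        exact hx1
    · rw [res_apply_not_mem (π := MulAction.toPerm ((x, 1) : G × C2)) (hinv₀ _ hxΓ) hy]
      have h3 : y ≠ y₀ := fun h => hy ((hW y).2 (Or.inl h))
      have h4 : y ≠ y₁ := fun h => hy ((hW y).2 (Or.inr h))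
      rw [swap_apply_of_ne_of_ne h3 h4]
  unfold sg at h2
  rw [hres', sign_swap h01] at h2
  exact absurd h2 (by decide)

end PP

section Bound

variable {z : G} {K : Subgroup G} {hK : K.relIndex (centralizer ({z} : Set G)) = 2}

theorem card_prod_top [Finite G] (D : Subgroup G) : Nat.card (D.prod (⊤ : Subgroup C2)) = 2 * Nat.card D := by
  rw [Nat.card_congr (Subgroup.prodEquiv D (⊤ : Subgroup C2)).toEquiv, Nat.card_prod, Subgroup.card_top,
    c2_card, mul_comm]

/-- Lower bound for the orbits of `D × Z/2`. -/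
theorem ncard_O_prod [Finite G] [DecidableEq (Cov (centralizer ({z} : Set G)) K hK)]
    [Fintype (Cov (centralizer ({z} : Set G)) K hK)] (D : Subgroup G)
    (y : Cov (centralizer ({z} : Set G)) K hK) :
    2 * Nat.card D ≤ (O (D.prod (⊤ : Subgroup C2)) y).ncard *
      Nat.card ↥(D ⊓ centralizer ({pp z K hK y} : Set G)) := by
  let DD : Subgroup (G × C2) := D.prod (⊤ : Subgroup C2)
  have h1 : (MulAction.stabilizer ↥DD y).index = (MulAction.orbit ↥DD y).ncard :=
    MulAction.index_stabilizer ↥DD y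
  have h2 := (MulAction.stabilizer ↥DD y).card_mul_index
  rw [h1, card_prod_top] at h2
  have hO : (O DD y) = MulAction.orbit ↥DD y := O_eq_orbit DD y
  rw [hO, ← h2, mul_comm]
  apply Nat.mul_le_mul_left
  let f : MulAction.stabilizer ↥DD y → ↥(D ⊓ centralizer ({pp z K hK y} : Set G)) := fun u =>
    ⟨(u.1.1 : G × C2).1, (Subgroup.mem_prod.mp u.1.2).1, by
      change (u.1.1 : G × C2).1 ∈ centralizer ({pp z K hK y} : Set G)
      rw [mem_centralizer_singleton_iff]
      have h3 : (u.1.1 : G × C2) • y = y := u.2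
      have h4 := pp_smul (z := z) (K := K) (hK := hK) (u.1.1 : G × C2) y
      rw [h3] at h4
      have h5 : (u.1.1 : G × C2).1 * pp z K hK y * (u.1.1 : G × C2).1⁻¹ * (u.1.1 : G × C2).1 =
          pp z K hK y * (u.1.1 : G × C2).1 := by rw [← h4]
      rw [← h5]
      group⟩
  apply Nat.card_le_card_of_injective f
  intro u v huv
  have h1' : (u.1.1 : G × C2).1 = (v.1.1 : G × C2).1 := congrArg Subtype.val huv
  have hu : (u.1.1 : G × C2) • y = y := u.2
  have hv : (v.1.1 : G × C2) • y = y := v.2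
  have h6 : ((1 : G), (u.1.1 : G × C2).2⁻¹ * (v.1.1 : G × C2).2) • y = y := by
    have h7 : ((1 : G), (u.1.1 : G × C2).2⁻¹ * (v.1.1 : G × C2).2) = (u.1.1 : G × C2)⁻¹ * (v.1.1 : G × C2) := by
      ext
      · simp [h1']
      · simp
    rw [h7, mul_smul, hv, inv_smul_eq_iff, hu]
  have h8 := sigma_fix h6
  apply Subtype.ext
  apply Subtype.ext
  apply Prod.ext h1'
  exact inv_mul_eq_one.mp h8

end Bound

end Cfsg.Agent.Lib.SignCover
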