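import Mathlib
import Cfsg.Prelude.Def_Transfer
import Cfsg.Agent.Lib.SignCover.Cover
import Cfsg.Agent.Lib.PGroup.Extraspecial
import Cfsg.Agent.Lib.Basic.PCore

/-!
# Elementwise facts on a self-centralizing extraspecial `E = O_2(C_G(z))`
-/

set_option autoImplicit false
set_option linter.unusedSectionVars false
set_option linter.unusedVariables false
set_option linter.style.haveILetI false

namespace Cfsg.Agent.Lib.SignCover

open Subgroup
open scoped commutatorElement
open Cfsg.Agent.Lib.PGroup.Extraspecial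

variable {G : Type*} [Group G]

/-- The elementwise facts used below. -/
structure ESetup (z : G) (E : Subgroup G) : Prop where
  hz2 : z * z = 1
  hz1 : z ≠ 1
  hEH : E ≤ centralizer ({z} : Set G)
  hzE : z ∈ E
  hEn : ∀ h ∈ centralizer ({z} : Set G), ∀ e ∈ E, h⁻¹ * e * h ∈ E
  hcent : ∀ c, (∀ e ∈ E, e * c = c * e) → c ∈ E
  hcomm : ∀ a ∈ E, ∀ b ∈ E, a⁻¹ * (b⁻¹ * a * b) = 1 ∨ a⁻¹ * (b⁻¹ * a * b) = z
  hsq : ∀ a ∈ E, a * a = 1 ∨ a * a = z
  hcen : ∀ c ∈ E, (∀ e ∈ E, e * c = c * e) → c = 1 ∨ c = z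
  hpg : IsPGroup 2 E
  hnab : ∃ a ∈ E, ∃ b ∈ E, a * b ≠ b * a
  hcard : ∀ A : Subgroup G, A ≤ E → (∀ a ∈ A, ∀ b ∈ A, a * b = b * a) → Nat.card A ^ 2 ≤ Nat.card E * 2
  hinner : ∀ p : G, (∀ e ∈ E, p * e * p⁻¹ * e⁻¹ = 1 ∨ p * e * p⁻¹ * e⁻¹ = z) → p * z = z * p →
    (∀ e ∈ E, p * e * p⁻¹ ∈ E) → p ∈ E

theorem center_two' {E : Type*} [Group E] (hZ : Nat.card (center E) = 2) {c d : E} (hc : c ∈ center E)
    (hd : d ∈ center E) (hc1 : c ≠ 1) (hd1 : d ≠ 1) : c = d := by
  obtain ⟨w, -, huniq⟩ := (Nat.card_eq_two_iff' (1 : center E)).mp hZ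
  have h1 := huniq ⟨c, hc⟩ (fun h => hc1 (congrArg Subtype.val h))
  have h2 := huniq ⟨d, hd⟩ (fun h => hd1 (congrArg Subtype.val h))
  exact congrArg Subtype.val (h1.trans h2.symm)

theorem ESetup.of [Finite G] {z : G} (hz : orderOf z = 2) {E : Subgroup G}
    (hE : E = (Cfsg.pCore 2 ↥(centralizer ({z} : Set G))).map (centralizer ({z} : Set G)).subtype)
    (hext : Cfsg.IsExtraspecial 2 ↥E) (hcent : centralizer (E : Set G) ≤ E) : ESetup z E := by
  classical
  haveI : Fact (Nat.Prime 2) := ⟨Nat.prime_two⟩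
  set H : Subgroup G := centralizer ({z} : Set G) with hH
  have hzz : z * z = 1 := by
    rw [← pow_two, ← hz]
    exact pow_orderOf_eq_one z
  have hz1 : z ≠ 1 := by
    intro h
    rw [h, orderOf_one] at hz
    omega
  have hHmem : ∀ h ∈ H, h * z = z * h := fun h hh =>
    (Subgroup.mem_centralizer_iff.mp hh z rfl).symm
  have hEH : E ≤ H := by
    rw [hE]
    rintro _ ⟨c, -, rfl⟩
    exact c.2
  have hEn : ∀ h ∈ H, ∀ e ∈ E, h⁻¹ * e * h ∈ E := by
    intro h hh e he
    rw [hE] at he ⊢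
    obtain ⟨c, hc, rfl⟩ := he
    have hn' := Cfsg.Agent.Lib.Basic.PCore.pCore_normal 2 ↥H
    have h1 := hn'.conj_mem c hc (⟨h, hh⟩ : H)⁻¹
    refine ⟨_, h1, ?_⟩
    simp
  have hcE : ∀ c : G, (∀ e ∈ E, e * c = c * e) → c ∈ E := fun c hc =>
    hcent (Subgroup.mem_centralizer_iff.mpr hc)
  have hzE : z ∈ E := hcE z fun e he => hHmem e (hEH he)
  let z₀ : E := ⟨z, hzE⟩
  have hz₀c : z₀ ∈ center E := by
    rw [Subgroup.mem_center_iff]
    intro g
    exact Subtype.ext (hHmem g (hEH g.2))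
  have hz₀1 : z₀ ≠ 1 := fun h => hz1 (congrArg Subtype.val h)
  have hcen2 : ∀ c ∈ center E, c = 1 ∨ c = z₀ := by
    intro c hc
    by_cases hc1 : c = 1
    · exact Or.inl hc1
    · exact Or.inr (center_two' hext.2 hc hz₀c hc1 hz₀1)
  have hc₀ := IsExtraspecial.comm_mem_center hext
  refine ⟨hzz, hz1, hEH, hzE, hEn, hcE, ?_, ?_, ?_, hext.1.1, ?_, ?_, ?_⟩
  · intro a ha b hb
    have h1 := hc₀ (⟨a, ha⟩ : E)⁻¹ (⟨b, hb⟩ : E)⁻¹
    have h2 : ((⁅(⟨a, ha⟩ : E)⁻¹, (⟨b, hb⟩ : E)⁻¹⁆ : E) : G) = a⁻¹ * (b⁻¹ * a * b) := by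
      simp [commutatorElement_def]
      group
    rcases hcen2 _ h1 with h | h
    · left
      rw [← h2, h]
      rfl
    · right
      rw [← h2, h]
  · intro a ha
    have h1 := IsExtraspecial.pow_mem_center hext (⟨a, ha⟩ : E)
    have h2 : (((⟨a, ha⟩ : E) ^ 2 : E) : G) = a * a := by
      simp [pow_two]
    rcases hcen2 _ h1 with h | h
    · left
      rw [← h2, h]
      rfl
    · right
      rw [← h2, h]
  · intro c hc hcc
    have h1 : (⟨c, hc⟩ : E) ∈ center E := by
      rw [Subgroup.mem_center_iff]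
      intro g
      exact Subtype.ext (hcc g g.2)
    rcases hcen2 _ h1 with h | h
    · left
      exact congrArg Subtype.val h
    · right
      exact congrArg Subtype.val h
  · by_contra hcon
    push Not at hcon
    have h1 : z₀ ∈ commutator E := by
      rw [hext.1.2.2]
      exact hz₀c
    have h2 : commutator E = ⊥ := by
      rw [_root_.commutator_def, eq_bot_iff, Subgroup.commutator_le]
      intro a _ b _
      rw [Subgroup.mem_bot, commutatorElement_eq_one_iff_mul_comm]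
      exact Subtype.ext (hcon a a.2 b b.2)
    rw [h2, Subgroup.mem_bot] at h1
    exact hz₀1 h1
  · intro A hA hAab
    have hle : A.subgroupOf E ≤ centralizer ((A.subgroupOf E : Subgroup E) : Set E) := by
      intro a ha
      rw [Subgroup.mem_centralizer_iff]
      intro b hb
      exact Subtype.ext (hAab _ (Subgroup.mem_subgroupOf.mp hb) _ (Subgroup.mem_subgroupOf.mp ha))
    have h1 := card_sq_le_of_le_centralizer hext.1.1 hc₀ hext.2 hle
    have h2 : Nat.card (A.subgroupOf E) = Nat.card A :=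
      Nat.card_congr (Subgroup.subgroupOfEquivOfLe hA).toEquiv
    rwa [h2] at h1
  · intro p hv hpz hpE
    let c₁ : E → E := fun u => ⟨p * u * p⁻¹ * u⁻¹, E.mul_mem (hpE u u.2) (E.inv_mem u.2)⟩
    have hc1 : ∀ u, c₁ u ∈ center E := by
      intro u
      rcases hv u u.2 with h | h
      · have : c₁ u = 1 := Subtype.ext h
        rw [this]
        exact Subgroup.one_mem _
      · have : c₁ u = z₀ := Subtype.ext h
        rw [this]
        exact hz₀c
    let c : E →* center E :=
      { toFun := fun u => ⟨c₁ u, hc1 u⟩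
        map_one' := by
          apply Subtype.ext
          apply Subtype.ext
          simp [c₁]
        map_mul' := by
          intro u v
          apply Subtype.ext
          apply Subtype.ext
          have h1 : (u : G) * (p * v * p⁻¹ * (v : G)⁻¹) = (p * v * p⁻¹ * (v : G)⁻¹) * u :=
            congrArg Subtype.val ((Subgroup.mem_center_iff.mp (hc1 v)) u)
          change p * ((u : G) * v) * p⁻¹ * ((u : G) * v)⁻¹ = (p * u * p⁻¹ * (u : G)⁻¹) * (p * v * p⁻¹ * (v : G)⁻¹)
          have h2 : (p * v * p⁻¹ * (v : G)⁻¹) * (u : G)⁻¹ = (u : G)⁻¹ * (p * v * p⁻¹ * (v : G)⁻¹) := by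
            calc (p * v * p⁻¹ * (v : G)⁻¹) * (u : G)⁻¹
                = (u : G)⁻¹ * ((u : G) * (p * v * p⁻¹ * (v : G)⁻¹)) * (u : G)⁻¹ := by group
              _ = (u : G)⁻¹ * ((p * v * p⁻¹ * (v : G)⁻¹) * u) * (u : G)⁻¹ := by rw [h1]
              _ = _ := by group
          calc p * ((u : G) * v) * p⁻¹ * ((u : G) * v)⁻¹
              = p * u * p⁻¹ * ((p * v * p⁻¹ * (v : G)⁻¹) * (u : G)⁻¹) := by group
            _ = p * u * p⁻¹ * ((u : G)⁻¹ * (p * v * p⁻¹ * (v : G)⁻¹)) := by rw [h2]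
            _ = _ := by group }
    have hcZ : ∀ u ∈ center E, c u = 1 := by
      intro u hu
      rcases hcen2 u hu with h | h
      · rw [h, map_one]
      · apply Subtype.ext
        apply Subtype.ext
        rw [h]
        change p * z * p⁻¹ * z⁻¹ = 1
        rw [hpz]
        group
    obtain ⟨a, ha⟩ := exists_comm_eq_of_hom hext.1.1 hc₀ hext.2 c hcZ
    have h1 : (a : G)⁻¹ * p ∈ E := by
      apply hcE
      intro e he
      have h2 : p * e * p⁻¹ * e⁻¹ = ((⁅a, (⟨e, he⟩ : E)⁆ : E) : G) := congrArg Subtype.val (ha ⟨e, he⟩)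
      have h3 : p * e * p⁻¹ * e⁻¹ = a * e * (a : G)⁻¹ * e⁻¹ := by
        simpa [commutatorElement_def] using h2
      have h4 : p * e * p⁻¹ = a * e * (a : G)⁻¹ := mul_right_cancel h3
      calc e * ((a : G)⁻¹ * p) = (a : G)⁻¹ * (a * e * (a : G)⁻¹) * p := by group
        _ = (a : G)⁻¹ * (p * e * p⁻¹) * p := by rw [h4]
        _ = _ := by group
    have := E.mul_mem a.2 h1
    simpa using this

section Alg

variable {z : G} {E : Subgroup G}

/-- Trichotomy for indices in `E`. -/
theorem index_cases [Finite G] (hS : ESetup z E) (F : Subgroup G) :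
    F.relIndex E = 1 ∨ F.relIndex E = 2 ∨ 4 ≤ F.relIndex E := by
  haveI : Fact (Nat.Prime 2) := ⟨Nat.prime_two⟩
  obtain ⟨k, hk⟩ := IsPGroup.iff_card.mp hS.hpg
  have h1 : F.relIndex E ∣ 2 ^ k := by
    rw [← hk]
    exact Subgroup.index_dvd_card _
  obtain ⟨j, -, hj⟩ := (Nat.dvd_prime_pow Nat.prime_two).1 h1
  rw [hj]
  match j with
  | 0 => exact Or.inl rfl
  | 1 => exact Or.inr (Or.inl rfl)
  | j + 2 =>
    right
    right
    rw [pow_add]
    have : 0 < 2 ^ j := by positivity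
    omega

/-- `F = C_E(p)`. -/
abbrev FF (E : Subgroup G) (p : G) : Subgroup G := E ⊓ centralizer ({p} : Set G)

theorem mem_FF {p a : G} : a ∈ FF E p ↔ a ∈ E ∧ a * p = p * a := by
  rw [FF, Subgroup.mem_inf, mem_centralizer_singleton_iff]

/-- If `F = E`, then `p` is central in `E`. -/
theorem idx_one (hS : ESetup z E) {p : G} (h : (FF E p).relIndex E = 1) : p = 1 ∨ p = z := by
  have h1 : E ≤ FF E p := Subgroup.relIndex_eq_one.mp h
  have h2 : ∀ e ∈ E, e * p = p * e := fun e he => (mem_FF.mp (h1 he)).2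
  exact hS.hcen p (hS.hcent p h2) h2

/-- An involution not commuting with `z` does not centralize an index-two subgroup. -/
theorem idx_two_not_comm (hS : ESetup z E) {p : G} (hpz : p * z ≠ z * p) : (FF E p).relIndex E ≠ 2 := by
  intro hi
  have hzF : z ∉ FF E p := fun h => hpz (mem_FF.mp h).2.symm
  have hFE : FF E p ≤ E := inf_le_left
  have hzc : ∀ e ∈ E, e * z = z * e := fun e he =>
    (Subgroup.mem_centralizer_iff.mp (hS.hEH he) z rfl).symm
  have hFc : ∀ a ∈ FF E p, ∀ b ∈ FF E p, a * b = b * a := by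
    intro a ha b hb
    have h1 : a⁻¹ * (b⁻¹ * a * b) ∈ FF E p :=
      (FF E p).mul_mem ((FF E p).inv_mem ha) ((FF E p).mul_mem ((FF E p).mul_mem ((FF E p).inv_mem hb) ha) hb)
    rcases hS.hcomm a (hFE ha) b (hFE hb) with h | h
    · have h2 : b⁻¹ * a * b = a := by
        have := congrArg (fun u => a * u) h
        simpa [mul_assoc] using this
      calc a * b = b * (b⁻¹ * a * b) := by group
        _ = b * a := by rw [h2]
    · rw [h] at h1
      exact absurd h1 hzF
  have hcomm1 : ∀ a ∈ E, ∀ b ∈ FF E p, a * b = b * a := by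
    intro a ha b hb
    by_cases haF : a ∈ FF E p
    · exact hFc a haF b hb
    · have h1 : a * z ∈ FF E p := by
        rw [mul_mem_iff2 hi ha hS.hzE]
        tauto
      have h2 := hFc _ h1 b hb
      have h3 : a * z * b = a * b * z := by
        rw [mul_assoc, ← hzc b (hFE hb), mul_assoc]
      rw [h3, ← mul_assoc] at h2
      exact mul_right_cancel h2
  obtain ⟨a, ha, b, hb, hab⟩ := hS.hnab
  apply hab
  by_cases hbF : b ∈ FF E p
  · exact hcomm1 a ha b hbF
  · have h1 : b * z ∈ FF E p := by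
      rw [mul_mem_iff2 hi hb hS.hzE]
      tauto
    have h2 := hcomm1 a ha _ h1
    have h3 : b * z * a = b * a * z := by
      rw [mul_assoc, ← hzc a ha, mul_assoc]
    rw [h3, ← mul_assoc] at h2
    exact mul_right_cancel h2

/-- An involution commuting with `z` and centralizing an index-two subgroup of `E` lies in `E`. -/
theorem mem_of_idx_two (hS : ESetup z E) {p : G} (hpz : p * z = z * p) (hp : p * p = 1)
    (hi : (FF E p).relIndex E = 2) : p ∈ E := by
  have hFE : FF E p ≤ E := inf_le_left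
  have hpi : p⁻¹ = p := inv_eq_of_mul_eq_one_left hp
  have hpH : p ∈ centralizer ({z} : Set G) := by
    rw [mem_centralizer_singleton_iff]
    exact hpz
  have hpE : ∀ e ∈ E, p * e * p⁻¹ ∈ E := by
    intro e he
    have := hS.hEn p⁻¹ (inv_mem hpH) e he
    simpa using this
  apply hS.hinner p _ hpz hpE
  intro e he
  by_cases heF : e ∈ FF E p
  · left
    rw [(mem_FF.mp heF).2.symm]
    group
  right
  set e' : G := p * e * p⁻¹ with he'
  have he'E : e' ∈ E := hpE e he
  have hcomF : ∀ f ∈ FF E p, p * f * p⁻¹ = f := by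
    intro f hf
    rw [(mem_FF.mp hf).2.symm]
    group
  have hαα : p * e' * p⁻¹ = e := by
    rw [he']
    calc p * (p * e * p⁻¹) * p⁻¹ = (p * p) * e * (p * p)⁻¹ := by group
      _ = e := by rw [hp]; group
  have he'F : e' ∉ FF E p := by
    intro h
    apply heF
    have h1 := hcomF e' h
    rw [hαα] at h1
    rw [h1]
    exact h
  set c : G := e' * e⁻¹ with hc
  have hcF : c ∈ FF E p := by
    rw [hc, mul_mem_iff2 hi he'E (E.inv_mem he), inv_mem_iff]
    tauto
  have hce : e' = c * e := by rw [hc]; group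
  have hαc : p * c * p⁻¹ = c := hcomF c hcF
  -- `c` is an involution
  have hc2 : c * c = 1 := by
    have h1 : p * c * p⁻¹ = e * e'⁻¹ := by
      rw [hc]
      calc p * (e' * e⁻¹) * p⁻¹ = (p * e' * p⁻¹) * (p * e * p⁻¹)⁻¹ := by group
        _ = e * e'⁻¹ := by rw [hαα]
    rw [hαc] at h1
    calc c * c = c * (e * e'⁻¹) := by rw [← h1]
      _ = 1 := by rw [hc]; group
  have hcinv : c⁻¹ = c := inv_eq_of_mul_eq_one_left hc2
  -- `c` commutes with `F`
  have hcf : ∀ f ∈ FF E p, f * c = c * f := by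
    intro f hf
    have hf1 : e⁻¹ * f * e ∈ FF E p := conj_mem2 hi he hf (hFE hf)
    have h2 : e * (e⁻¹ * f * e) * e⁻¹ = f := by group
    have h3 : p * (e * (e⁻¹ * f * e) * e⁻¹) * p⁻¹ = e' * (e⁻¹ * f * e) * e'⁻¹ := by
      rw [he']
      calc p * (e * (e⁻¹ * f * e) * e⁻¹) * p⁻¹
          = p * e * p⁻¹ * (p * (e⁻¹ * f * e) * p⁻¹) * (p * e * p⁻¹)⁻¹ := by group
        _ = p * e * p⁻¹ * (e⁻¹ * f * e) * (p * e * p⁻¹)⁻¹ := by rw [hcomF _ hf1]
    rw [h2, hcomF f hf, hce] at h3
    have h4 : c * e * (e⁻¹ * f * e) * (c * e)⁻¹ = c * f * c⁻¹ := by group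
    rw [h4] at h3
    calc f * c = c * f * c⁻¹ * c := by rw [← h3]
      _ = c * f := by group
  -- `c` commutes with `e`
  have hcee : e * c = c * e := by
    have h1 : e * e ∈ FF E p := sq_mem2 hi he
    have h2 := hcomF _ h1
    have h3 : p * (e * e) * p⁻¹ = e' * e' := by
      rw [he']
      group
    rw [h3, hce] at h2
    have h5 : c * (e * c) * e = e * e := by
      rw [← h2]
      group
    have h6 : c * (e * c) = e := mul_right_cancel (b := e) h5
    calc e * c = c⁻¹ * (c * (e * c)) := by group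
      _ = c * e := by rw [h6, hcinv]
  have hcE : c ∈ E := hFE hcF
  have hcall : ∀ u ∈ E, u * c = c * u := by
    intro u hu
    by_cases huF : u ∈ FF E p
    · exact hcf u huF
    · have h1 : e⁻¹ * u ∈ FF E p := by
        rw [mul_mem_iff2 hi (E.inv_mem he) hu, inv_mem_iff]
        tauto
      have h2 := hcf _ h1
      calc u * c = e * (e⁻¹ * u * c) := by group
        _ = e * (c * (e⁻¹ * u)) := by rw [h2]
        _ = (e * c) * (e⁻¹ * u) := by group
        _ = c * e * (e⁻¹ * u) := by rw [hcee]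
        _ = c * u := by group
  rcases hS.hcen c hcE hcall with h | h
  · exfalso
    have h1 : e' = e := by
      rw [hce, h, one_mul]
    apply heF
    refine mem_FF.mpr ⟨he, ?_⟩
    have h2 : p * e * p⁻¹ = e := h1
    calc e * p = p * e * p⁻¹ * p := by rw [h2]
      _ = p * e := by group
  · exact h

end Alg

end Cfsg.Agent.Lib.SignCover
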