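import Mathlib
import Cfsg.Prelude.Def_Transfer
import Cfsg.Agent.Lib.SignCover.Setup

/-!
# Consequences of the triviality of the sign on `G`
-/

set_option autoImplicit false
set_option linter.unusedSectionVars false
set_option linter.unusedVariables false
set_option linter.style.haveILetI false

namespace Cfsg.Agent.Lib.SignCover

open Subgroup

variable {G : Type*} [Group G]

/-- A 2-element outside an index-two subgroup. -/
theorem exists_two_elt [Finite G] {H K : Subgroup G} (hK : K.relIndex H = 2) :
    ∃ x ∈ H, x ∉ K ∧ ∃ m : ℕ, x ^ (2 ^ m) = 1 := by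
  obtain ⟨u, hu, huK⟩ := exists_not_mem2 hK
  have h0 : orderOf u ≠ 0 := (orderOf_pos u).ne'
  obtain ⟨k, m, hm, hk⟩ := Nat.exists_eq_two_pow_mul_odd h0
  refine ⟨u ^ m, H.pow_mem hu m, ?_, k, ?_⟩
  · obtain ⟨j, rfl⟩ := hm
    intro h
    apply huK
    have h1 : (u * u) ^ j ∈ K := K.pow_mem (sq_mem2 hK hu) j
    have h2 : u ^ (2 * j + 1) = (u * u) ^ j * u := by
      rw [pow_succ, pow_mul, pow_two]
    rw [h2] at h
    have := K.mul_mem (K.inv_mem h1) h
    simpa using this
  · rw [← pow_mul, mul_comm, ← hk, pow_orderOf_eq_one]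

theorem card_eq_mul_relIndex {F E : Subgroup G} (hFE : F ≤ E) :
    Nat.card E = Nat.card F * F.relIndex E := by
  have h1 := (F.subgroupOf E).card_mul_index
  have h3 : Nat.card (F.subgroupOf E) = Nat.card F :=
    Nat.card_congr (Subgroup.subgroupOfEquivOfLe hFE).toEquiv
  rw [h3] at h1
  exact h1.symm

section Gamma

variable {z : G} {E : Subgroup G}

/-- The group `E × Z/2`. -/
abbrev EE (E : Subgroup G) : Subgroup (G × C2) := E.prod ⊤

/-- The group `⟨x⟩E × Z/2`. -/
abbrev Gam (x : G) (E : Subgroup G) : Subgroup (G × C2) := (zpowers x ⊔ E).prod ⊤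

theorem mem_EE {a : G × C2} : a ∈ EE E ↔ a.1 ∈ E := by
  simp [EE, Subgroup.mem_prod]

theorem mem_Gam {x : G} {a : G × C2} : a ∈ Gam x E ↔ a.1 ∈ zpowers x ⊔ E := by
  simp [Gam, Subgroup.mem_prod]

theorem Gam_H (hS : ESetup z E) {x : G} (hx : x ∈ centralizer ({z} : Set G)) :
    ∀ a ∈ Gam x E, a.1 ∈ centralizer ({z} : Set G) := by
  intro a ha
  have h1 : zpowers x ⊔ E ≤ centralizer ({z} : Set G) :=
    sup_le ((Subgroup.zpowers_le).mpr hx) hS.hEH
  exact h1 (mem_Gam.mp ha)

theorem Gam_p [Finite G] (hS : ESetup z E) {x : G} (hx : x ∈ centralizer ({z} : Set G)) {m : ℕ}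
    (hm : x ^ (2 ^ m) = 1) : IsPGroup 2 (Gam x E) := by
  haveI : Fact (Nat.Prime 2) := ⟨Nat.prime_two⟩
  have hp1 : IsPGroup 2 (zpowers x) := by
    rintro ⟨u, k, rfl⟩
    refine ⟨m, Subtype.ext ?_⟩
    change (x ^ k) ^ (2 ^ m) = 1
    rw [← zpow_natCast, ← zpow_mul, mul_comm, zpow_mul, zpow_natCast, hm, one_zpow]
  have hnorm : zpowers x ≤ normalizer (E : Set G) := by
    rw [Subgroup.zpowers_le, Subgroup.mem_normalizer_iff]
    intro h
    constructor
    · intro hh
      have := hS.hEn x⁻¹ (inv_mem hx) h hh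
      simpa using this
    · intro hh
      have := hS.hEn x hx _ hh
      simpa [mul_assoc] using this
  have hD : IsPGroup 2 ↥(zpowers x ⊔ E) := IsPGroup.to_sup_of_normal_right' hp1 hS.hpg hnorm
  rintro ⟨a, ha⟩
  obtain ⟨k, hk⟩ := hD ⟨a.1, mem_Gam.mp ha⟩
  refine ⟨k + 1, Subtype.ext (Prod.ext ?_ ?_)⟩
  · have h1 : a.1 ^ (2 ^ k) = 1 := congrArg Subtype.val hk
    change a.1 ^ (2 ^ (k + 1)) = 1
    rw [pow_succ, pow_mul, h1, one_pow]
  · change a.2 ^ (2 ^ (k + 1)) = 1
    rw [pow_succ', pow_mul', pow_two, c2_sq]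

theorem EE_le_Gam (x : G) : EE E ≤ Gam x E := fun a ha => mem_Gam.mpr ((le_sup_right : E ≤ zpowers x ⊔ E) (mem_EE.mp ha))

theorem Gam_norm (hS : ESetup z E) {x : G} (hx : x ∈ centralizer ({z} : Set G)) :
    ∀ g ∈ Gam x E, ∀ e ∈ EE E, g⁻¹ * e * g ∈ EE E := by
  intro g hg e he
  exact mem_EE.mpr (hS.hEn _ (Gam_H hS hx g hg) _ (mem_EE.mp he))

/-- The central involution of `E × Z/2`. -/
abbrev zeta (z : G) : G × C2 := (z, 1)

theorem c2_comm (a b : C2) : a⁻¹ * (b⁻¹ * a * b) = 1 := by
  revert a b
  decide

theorem EE_comm (hS : ESetup z E) : ∀ a ∈ EE E, ∀ b ∈ EE E,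
    a⁻¹ * (b⁻¹ * a * b) = 1 ∨ a⁻¹ * (b⁻¹ * a * b) = zeta z := by
  intro a ha b hb
  have h2 : (a⁻¹ * (b⁻¹ * a * b)).2 = 1 := c2_comm a.2 b.2
  rcases hS.hcomm a.1 (mem_EE.mp ha) b.1 (mem_EE.mp hb) with h | h
  · left
    exact Prod.ext h h2
  · right
    exact Prod.ext h h2

theorem EE_sq (hS : ESetup z E) : ∀ a ∈ EE E, a * a = 1 ∨ a * a = zeta z := by
  intro a ha
  have h2 : (a * a).2 = 1 := c2_sq a.2
  rcases hS.hsq a.1 (mem_EE.mp ha) with h | h
  · left
    exact Prod.ext h h2
  · right
    exact Prod.ext h h2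

theorem zeta_comm {a : G × C2} (ha : a.1 ∈ centralizer ({z} : Set G)) : zeta z * a = a * zeta z := by
  apply Prod.ext
  · exact (mem_H_iff.mp ha).symm
  · simp

theorem zeta_mem (hS : ESetup z E) : zeta z ∈ EE E := mem_EE.mpr hS.hzE

theorem zeta_sq (hS : ESetup z E) : zeta z * zeta z = 1 := Prod.ext hS.hz2 (by simp)

theorem Gam_mem_x (x : G) : ((x, 1) : G × C2) ∈ Gam x E :=
  mem_Gam.mpr (le_sup_left (a := zpowers x) (mem_zpowers x))

/-- An index-four subgroup of `E × Z/2` contains elements with commutator `ζ`, if `n ≥ 3`. -/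
theorem exists_comm_zeta [Finite G] (hS : ESetup z E) {n : ℕ} (hn : 3 ≤ n)
    (hcard : Nat.card E = 2 ^ (2 * n + 1)) {L L' : Subgroup (G × C2)} (hLE : L ≤ EE E)
    (hLi : L.relIndex (EE E) = 2) (hL'L : L' ≤ L) (hL'i : L'.relIndex L = 2) :
    ∃ u ∈ L', ∃ v ∈ L', u⁻¹ * (v⁻¹ * u * v) = zeta z := by
  by_contra hcon
  push Not at hcon
  let W : Subgroup G := L'.map (MonoidHom.fst G C2)
  have hWE : W ≤ E := by
    rintro _ ⟨u, hu, rfl⟩
    exact mem_EE.mp (hLE (hL'L hu))
  have hWab : ∀ a ∈ W, ∀ b ∈ W, a * b = b * a := by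
    rintro _ ⟨u, hu, rfl⟩ _ ⟨v, hv, rfl⟩
    have huE := hLE (hL'L hu)
    have hvE := hLE (hL'L hv)
    rcases EE_comm hS u huE v hvE with h | h
    · have h2 : v⁻¹ * u * v = u := by
        have := congrArg (fun t => u * t) h
        simpa [mul_assoc] using this
      have h3 : u * v = v * u := by
        calc u * v = v * (v⁻¹ * u * v) := by group
          _ = v * u := by rw [h2]
      exact congrArg Prod.fst h3
    · exact absurd h (hcon u hu v hv)
  have h1 := hS.hcard W hWE hWab
  have h2 : Nat.card L' ≤ Nat.card W * 2 := by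
    let f : L' → W × C2 := fun u => (⟨u.1.1, ⟨u.1, u.2, rfl⟩⟩, u.1.2)
    have hf : Function.Injective f := by
      intro u v huv
      apply Subtype.ext
      apply Prod.ext
      · exact congrArg (fun t => (t.1 : G)) huv
      · exact congrArg (fun t => t.2) huv
    have h3 := Nat.card_le_card_of_injective f hf
    rwa [Nat.card_prod, c2_card] at h3
  have h3 := card_eq_two_mul hLi hLE
  have h4 := card_eq_two_mul hL'i hL'L
  have h5 : Nat.card (EE E) = 2 * Nat.card E := card_prod_top E
  have h6 : Nat.card E ≤ 4 * Nat.card W := by omega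
  have h7 : (2 : ℕ) ^ 7 ≤ Nat.card E := by
    rw [hcard]
    exact Nat.pow_le_pow_right (by norm_num) (by omega)
  have h8 : Nat.card E * Nat.card E ≤ 16 * (Nat.card W ^ 2) := by
    nlinarith
  nlinarith

/-- The bound for the orbit of `E × Z/2`. -/
theorem orbit_bound [Finite G] {K : Subgroup G} {hK : K.relIndex (centralizer ({z} : Set G)) = 2}
    [DecidableEq (Cov (centralizer ({z} : Set G)) K hK)] [Fintype (Cov (centralizer ({z} : Set G)) K hK)]
    (y : Cov (centralizer ({z} : Set G)) K hK) :
    2 * (FF E (pp z K hK y)).relIndex E ≤ (O (EE E) y).ncard := by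
  have h1 := ncard_O_prod (z := z) (K := K) (hK := hK) E y
  have h2 : Nat.card E = Nat.card (FF E (pp z K hK y)) * (FF E (pp z K hK y)).relIndex E :=
    card_eq_mul_relIndex inf_le_left
  have hpos : 0 < Nat.card (FF E (pp z K hK y)) := Nat.card_pos
  rw [h2] at h1
  have h3 : Nat.card ↥(E ⊓ centralizer ({pp z K hK y} : Set G)) = Nat.card (FF E (pp z K hK y)) := rfl
  rw [h3] at h1
  have h4 : Nat.card (FF E (pp z K hK y)) * (2 * (FF E (pp z K hK y)).relIndex E) ≤
      Nat.card (FF E (pp z K hK y)) * (O (EE E) y).ncard := by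
    calc _ = 2 * (Nat.card (FF E (pp z K hK y)) * (FF E (pp z K hK y)).relIndex E) := by ring
      _ ≤ _ := h1
      _ = _ := by ring
  exact Nat.le_of_mul_le_mul_left h4 hpos

end Gamma

/-- **Core of S3300.** -/
theorem core_3300 [Finite G] {z : G} {E : Subgroup G} (hS : ESetup z E) (hres : Cfsg.pResidual 2 G = ⊤)
    {n : ℕ} (hn : 3 ≤ n) (hcard : Nat.card E = 2 ^ (2 * n + 1)) {K : Subgroup G}
    (hK : K.relIndex (centralizer ({z} : Set G)) = 2)
    (hW : ∀ g, g * z * g⁻¹ ∈ E → g * z * g⁻¹ = z) : False := by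
  classical
  letI : Fintype (Cov (centralizer ({z} : Set G)) K hK) := Fintype.ofFinite _
  obtain ⟨x, hxH, hxK, m, hm⟩ := exists_two_elt hK
  refine cover_contra (hK := hK) hres (Γ₀ := Gam x E) (Gam_H hS hxH) (Gam_mem_x x) hxK ?_
  intro y hy g hg
  have hGp := Gam_p hS hxH hm
  have hp2 := pp_sq hS.hz2 (K := K) (hK := hK) y
  have hp1 := pp_ne_one hS.hz1 (K := K) (hK := hK) y
  have hpE : pp z K hK y ∉ E := by
    intro h
    obtain ⟨a, rfl⟩ := mk_surj y
    rw [pp_mk] at h hy
    exact hy (hW _ h)
  have hidx : 4 ≤ (FF E (pp z K hK y)).relIndex E := by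
    rcases index_cases hS (FF E (pp z K hK y)) with h | h | h
    · rcases idx_one hS h with h1 | h1
      · exact absurd h1 hp1
      · exact absurd h1 hy
    · by_cases hpz : pp z K hK y * z = z * pp z K hK y
      · exact absurd (mem_of_idx_two hS hpz hp2 h) hpE
      · exact absurd h (idx_two_not_comm hS hpz)
    · exact h
  have h8 : 8 ≤ (O (EE E) y).ncard := by
    have := orbit_bound (E := E) y
    omega
  refine sg_main (E := EE E) (ζ := zeta z) hGp (EE_le_Gam x) (Gam_norm hS hxH) (zeta_mem hS)
    (fun e he => zeta_comm (hS.hEH (mem_EE.mp he))) (zeta_sq hS) (EE_comm hS) (EE_sq hS) h8 ?_ g hg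
  intro L L' hLE hLi hL'L hL'i hζ h2
  obtain ⟨u, hu, v, hv, huv⟩ := exists_comm_zeta hS hn hcard hLE hLi hL'L hL'i
  rw [← huv]
  have hp : IsPGroup 2 L' := (hGp.to_le (EE_le_Gam x)).to_le (hL'L.trans hLE)
  exact fix_of_comm hp h2 hu hv

/-- Elements of `⟨z⟩`. -/
theorem mem_zpowers_two {z u : G} (hz : z * z = 1) (hu : u ∈ zpowers z) : u = 1 ∨ u = z := by
  obtain ⟨k, rfl⟩ := Subgroup.mem_zpowers_iff.mp hu
  rcases Int.even_or_odd' k with ⟨j, rfl | rfl⟩
  · left
    rw [zpow_mul, zpow_two, hz, one_zpow]
  · right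
    rw [zpow_add, zpow_mul, zpow_two, hz, one_zpow, one_mul, zpow_one]

/-- **Core of S3301.** -/
theorem core_3301 [Finite G] {z : G} {E : Subgroup G} (hS : ESetup z E) (hres : Cfsg.pResidual 2 G = ⊤)
    {K : Subgroup G} (hK : K.relIndex (centralizer ({z} : Set G)) = 2)
    (hstar1 : ∀ u ∈ centralizer ({z} : Set G), u * u = 1 → u ∈ K)
    (hstar2 : ∀ u ∈ centralizer ({z} : Set G), ∀ a ∈ centralizer ({z} : Set G),
      ∀ b ∈ centralizer ({z} : Set G), u * u = a⁻¹ * (b⁻¹ * a * b) → u ∈ K) : False := by
  classical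
  letI : Fintype (Cov (centralizer ({z} : Set G)) K hK) := Fintype.ofFinite _
  obtain ⟨x, hxH, hxK, m, hm⟩ := exists_two_elt hK
  refine cover_contra (hK := hK) hres (Γ₀ := Gam x E) (Gam_H hS hxH) (Gam_mem_x x) hxK ?_
  intro y hy g hg
  have hGp := Gam_p hS hxH hm
  have hp2 := pp_sq hS.hz2 (K := K) (hK := hK) y
  have hp1 := pp_ne_one hS.hz1 (K := K) (hK := hK) y
  have hGH := Gam_H hS hxH
  by_cases hpz : pp z K hK y * z = z * pp z K hK y
  · obtain ⟨a, rfl⟩ := mk_surj y
    have hpa : pp z K hK (mk _ K hK a) = a.1 * z * a.1⁻¹ := pp_mk a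
    set p := pp z K hK (mk _ K hK a) with hp
    -- conjugates of elements of `C(p)` lie in `H`
    have hconjH : ∀ f, f * p = p * f → a.1⁻¹ * f * a.1 ∈ centralizer ({z} : Set G) := by
      intro f hf
      rw [mem_H_iff]
      have h3 : f * (a.1 * z * a.1⁻¹) = (a.1 * z * a.1⁻¹) * f := by rw [← hpa]; exact hf
      calc a.1⁻¹ * f * a.1 * z = a.1⁻¹ * (f * (a.1 * z * a.1⁻¹)) * a.1 := by group
        _ = a.1⁻¹ * ((a.1 * z * a.1⁻¹) * f) * a.1 := by rw [h3]
        _ = z * (a.1⁻¹ * f * a.1) := by group
    rcases index_cases hS (FF E p) with h | h | h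
    · rcases idx_one hS h with h1 | h1
      · exact absurd h1 hp1
      · exact absurd h1 hy
    · -- the case of index two
      have hpE : p ∈ E := mem_of_idx_two hS hpz hp2 h
      have hFE : FF E p ≤ E := inf_le_left
      have hzF : z ∈ FF E p := mem_FF.mpr ⟨hS.hzE, hpz.symm⟩
      have hzc : ∀ e ∈ E, e * z = z * e := fun e he => mem_H_iff.mp (hS.hEH he)
      have hpF : p ∈ FF E p := mem_FF.mpr ⟨hpE, rfl⟩
      have hfixF : ∀ f ∈ FF E p, ((f, 1) : G × C2) • mk _ K hK a = mk _ K hK a := by
        intro f hf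
        have hfH := hconjH f (mem_FF.mp hf).2
        rw [fix_iff']
        refine ⟨hfH, ?_⟩
        refine ⟨fun _ => ?_, fun _ => rfl⟩
        have hsq : (a.1⁻¹ * f * a.1) * (a.1⁻¹ * f * a.1) = a.1⁻¹ * (f * f) * a.1 := by group
        rcases hS.hsq f (hFE hf) with h1 | h1
        · apply hstar1 _ hfH
          rw [hsq, h1]
          group
        · -- `F` is not abelian
          have hnab : ∃ u ∈ FF E p, ∃ v ∈ FF E p, u * v ≠ v * u := by
            by_contra hcon
            push Not at hcon
            have h3 := hS.hcard (FF E p) hFE hcon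
            have h4 := card_eq_two_mul h hFE
            have h5 : Nat.card (FF E p) ≤ 4 := by
              have hpos : 0 < Nat.card (FF E p) := Nat.card_pos
              rw [h4] at h3
              nlinarith
            have hf1 : f ≠ 1 := by
              rintro rfl
              exact hS.hz1 (by simpa using h1.symm)
            have hfz : f ≠ z := by
              rintro rfl
              rw [hS.hz2] at h1
              exact hS.hz1 h1.symm
            have hfzc : f * z = z * f := hzc f (hFE hf)
            have hfz2 : (f * z) * (f * z) = z := by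
              calc (f * z) * (f * z) = f * (z * f) * z := by group
                _ = f * (f * z) * z := by rw [hfzc]
                _ = (f * f) * (z * z) := by group
                _ = z := by rw [h1, hS.hz2, mul_one]
            have hcard5 : ({1, z, p, f, f * z} : Finset G).card = 5 := by
              rw [Finset.card_insert_of_notMem, Finset.card_insert_of_notMem,
                Finset.card_insert_of_notMem, Finset.card_insert_of_notMem, Finset.card_singleton]
              · simp only [Finset.mem_singleton]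
                intro h6
                apply hS.hz1
                have : f * 1 = f * z := by rw [mul_one]; exact h6
                exact (mul_left_cancel this).symm
              · simp only [Finset.mem_insert, Finset.mem_singleton, not_or]
                refine ⟨?_, ?_⟩
                · intro h6
                  rw [← h6, hp2] at h1
                  exact hS.hz1 h1.symm
                · intro h6
                  rw [← h6, hp2] at hfz2
                  exact hS.hz1 hfz2.symm
              · simp only [Finset.mem_insert, Finset.mem_singleton, not_or]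
                refine ⟨Ne.symm hy, Ne.symm hfz, ?_⟩
                intro h6
                apply hf1
                have : 1 * z = f * z := by rw [one_mul]; exact h6
                exact (mul_right_cancel this).symm
              · simp only [Finset.mem_insert, Finset.mem_singleton, not_or]
                refine ⟨Ne.symm hS.hz1, Ne.symm hp1, Ne.symm hf1, ?_⟩
                intro h6
                have h7 : f = z := by
                  have : f * z * z = z := by rw [← h6]; simp
                  rwa [mul_assoc, hS.hz2, mul_one] at this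
                exact hfz h7
            have hsub : ((({1, z, p, f, f * z} : Finset G) : Set G)) ⊆ (FF E p : Set G) := by
              intro t ht
              simp only [Finset.coe_insert, Finset.coe_singleton, Set.mem_insert_iff, Set.mem_singleton_iff] at ht
              rcases ht with rfl | rfl | rfl | rfl | rfl
              · exact (FF E p).one_mem
              · exact hzF
              · exact hpF
              · exact hf
              · exact (FF E p).mul_mem hf hzF
            have h6 := Set.ncard_le_ncard hsub (Set.toFinite _)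
            rw [Set.ncard_coe_finset, hcard5, ← Nat.card_coe_set_eq] at h6
            have h7 : Nat.card (FF E p : Set G) = Nat.card (FF E p) := rfl
            rw [h7] at h6
            omega
          obtain ⟨u, hu, v, hv, huv⟩ := hnab
          have hcz : u⁻¹ * (v⁻¹ * u * v) = z := by
            rcases hS.hcomm u (hFE hu) v (hFE hv) with h3 | h3
            · exfalso
              apply huv
              have h4 : v⁻¹ * u * v = u := by
                have := congrArg (fun t => u * t) h3
                simpa [mul_assoc] using this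
              calc u * v = v * (v⁻¹ * u * v) := by group
                _ = v * u := by rw [h4]
            · exact h3
          apply hstar2 _ hfH _ (hconjH u (mem_FF.mp hu).2) _ (hconjH v (mem_FF.mp hv).2)
          rw [hsq, h1, ← hcz]
          group
      refine sg_general (C := {c | c.1 ∈ FF E p ∧ c.2 = 1}) (E := EE E) (y := mk _ K hK a) ?_ ?_ ?_ ?_ _
        (Gam x E) rfl hGp (EE_le_Gam x) (Gam_norm hS hxH) ?_ g hg
      · have := orbit_bound (E := E) (mk _ K hK a)
        rw [← hp, h] at this
        omega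
      · intro u hu v hv
        refine ⟨?_, c2_comm _ _⟩
        rcases hS.hcomm u.1 (mem_EE.mp hu) v.1 (mem_EE.mp hv) with h3 | h3
        · change u.1⁻¹ * (v.1⁻¹ * u.1 * v.1) ∈ FF E p
          rw [h3]
          exact (FF E p).one_mem
        · change u.1⁻¹ * (v.1⁻¹ * u.1 * v.1) ∈ FF E p
          rw [h3]
          exact hzF
      · intro u hu
        refine ⟨?_, c2_sq _⟩
        rcases hS.hsq u.1 (mem_EE.mp hu) with h3 | h3
        · change u.1 * u.1 ∈ FF E p
          rw [h3]
          exact (FF E p).one_mem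
        · change u.1 * u.1 ∈ FF E p
          rw [h3]
          exact hzF
      · intro L hLE hLi hLs c hc hcL
        apply sg_eq_one_of_fix
        rintro _ ⟨l, hl, rfl⟩
        have h3 : c • l • mk _ K hK a = l • (l⁻¹ * c * l) • mk _ K hK a := by
          simp [mul_smul]
        rw [h3]
        have h4 : l⁻¹ * c * l = ((l.1⁻¹ * c.1 * l.1, 1) : G × C2) := by
          apply Prod.ext
          · rfl
          · change l.2⁻¹ * c.2 * l.2 = 1
            rw [hc.2, mul_one, inv_mul_cancel]
        rw [h4, hfixF _ (conj_mem2 h (mem_EE.mp (hLE hl)) hc.1 (hFE hc.1))]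
      · intro s hs hsy e he
        refine ⟨?_, c2_comm _ _⟩
        change s.1⁻¹ * (e.1⁻¹ * s.1 * e.1) ∈ FF E p
        have hs1H := hGH s hs
        have he1 := mem_EE.mp he
        have hcs : s.1 * p = p * s.1 := by
          have h3 := pp_smul (z := z) (K := K) (hK := hK) s (mk _ K hK a)
          rw [hsy] at h3
          calc s.1 * p = s.1 * p * s.1⁻¹ * s.1 := by group
            _ = p * s.1 := by rw [← h3]
        have hw : s.1⁻¹ * e.1⁻¹ * s.1 ∈ E := hS.hEn _ hs1H _ (E.inv_mem he1)
        have hwF : s.1⁻¹ * e.1⁻¹ * s.1 ∈ FF E p ↔ e.1 ∈ FF E p := by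
          rw [mem_FF, mem_FF]
          have hw2 : s.1⁻¹ * p * s.1 = p := by
            calc s.1⁻¹ * p * s.1 = s.1⁻¹ * (p * s.1) := by group
              _ = s.1⁻¹ * (s.1 * p) := by rw [hcs]
              _ = p := by group
          have hw3 : s.1⁻¹ * e.1⁻¹ * s.1 * p = s.1⁻¹ * (e.1⁻¹ * p) * s.1 := by
            calc s.1⁻¹ * e.1⁻¹ * s.1 * p = s.1⁻¹ * e.1⁻¹ * (s.1 * p) := by group
              _ = s.1⁻¹ * e.1⁻¹ * (p * s.1) := by rw [hcs]
              _ = _ := by group
          have hw4 : p * (s.1⁻¹ * e.1⁻¹ * s.1) = s.1⁻¹ * (p * e.1⁻¹) * s.1 := by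
            calc p * (s.1⁻¹ * e.1⁻¹ * s.1) = (s.1⁻¹ * p * s.1) * (s.1⁻¹ * e.1⁻¹ * s.1) := by rw [hw2]
              _ = _ := by group
          rw [hw3, hw4]
          constructor
          · rintro ⟨-, h5⟩
            refine ⟨he1, ?_⟩
            have h6 : e.1⁻¹ * p = p * e.1⁻¹ := by
              have h7 := mul_right_cancel h5
              exact mul_left_cancel h7
            calc e.1 * p = e.1 * (p * e.1⁻¹) * e.1 := by group
              _ = e.1 * (e.1⁻¹ * p) * e.1 := by rw [h6]
              _ = p * e.1 := by group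
          · rintro ⟨-, h5⟩
            refine ⟨hw, ?_⟩
            have h6 : e.1⁻¹ * p = p * e.1⁻¹ := by
              calc e.1⁻¹ * p = e.1⁻¹ * (p * e.1) * e.1⁻¹ := by group
                _ = e.1⁻¹ * (e.1 * p) * e.1⁻¹ := by rw [h5]
                _ = p * e.1⁻¹ := by group
            rw [h6]
        have h3 : s.1⁻¹ * (e.1⁻¹ * s.1 * e.1) = (s.1⁻¹ * e.1⁻¹ * s.1) * e.1 := by group
        rw [h3, mul_mem_iff2 h hw he1, hwF]
    · -- the case of large index: `ζ` fixes the point
      have h8 : 8 ≤ (O (EE E) (mk _ K hK a)).ncard := by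
        have := orbit_bound (E := E) (mk _ K hK a)
        rw [← hp] at this
        omega
      have hfix : zeta z • mk _ K hK a = mk _ K hK a := by
        rw [fix_iff']
        have hzz : a.1⁻¹ * z * a.1 ∈ centralizer ({z} : Set G) := by
          rw [mem_H_iff]
          rw [hpa] at hpz
          calc a.1⁻¹ * z * a.1 * z = a.1⁻¹ * (z * (a.1 * z * a.1⁻¹)) * a.1 := by group
            _ = a.1⁻¹ * ((a.1 * z * a.1⁻¹) * z) * a.1 := by rw [hpz]
            _ = _ := by group
        refine ⟨hzz, fun _ => ?_, fun _ => rfl⟩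
        apply hstar1 _ hzz
        calc (a.1⁻¹ * z * a.1) * (a.1⁻¹ * z * a.1) = a.1⁻¹ * (z * z) * a.1 := by group
          _ = 1 := by rw [hS.hz2]; group
      exact sg_main (E := EE E) (ζ := zeta z) hGp (EE_le_Gam x) (Gam_norm hS hxH) (zeta_mem hS)
        (fun e he => zeta_comm (hS.hEH (mem_EE.mp he))) (zeta_sq hS) (EE_comm hS) (EE_sq hS) h8
        (fun _ _ _ _ _ _ _ _ => hfix) g hg
  · -- `p` does not commute with `z`: the Klein group `⟨z⟩ × Z/2`
    have hcentral : ∀ e ∈ (zpowers z).prod (⊤ : Subgroup C2), ∀ s : G × C2,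
        s.1 ∈ centralizer ({z} : Set G) → e * s = s * e := by
      intro e he s hs
      have he1 : e.1 ∈ zpowers z := (Subgroup.mem_prod.mp he).1
      apply Prod.ext
      · rcases mem_zpowers_two hS.hz2 he1 with h | h
        · change e.1 * s.1 = s.1 * e.1
          rw [h, one_mul, mul_one]
        · change e.1 * s.1 = s.1 * e.1
          rw [h]
          exact (mem_H_iff.mp hs).symm
      · exact mul_comm _ _
    have hzzH : ∀ e ∈ (zpowers z).prod (⊤ : Subgroup C2), e.1 ∈ centralizer ({z} : Set G) := by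
      intro e he
      have he1 : e.1 ∈ zpowers z := (Subgroup.mem_prod.mp he).1
      rcases mem_zpowers_two hS.hz2 he1 with h | h
      · rw [h]
        exact Subgroup.one_mem _
      · rw [h]
        exact hS.hEH hS.hzE
    have hV4 : 4 ≤ (O ((zpowers z).prod (⊤ : Subgroup C2)) y).ncard := by
      have h1 := ncard_O_prod (z := z) (K := K) (hK := hK) (zpowers z) y
      have h2 : Nat.card (zpowers z) = 2 := by
        rw [Nat.card_zpowers]
        exact orderOf_eq_prime (by rw [pow_two]; exact hS.hz2) hS.hz1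
      have h3 : zpowers z ⊓ centralizer ({pp z K hK y} : Set G) = ⊥ := by
        rw [eq_bot_iff]
        rintro u ⟨hu1, hu2⟩
        rcases mem_zpowers_two hS.hz2 hu1 with h | h
        · exact h
        · exfalso
          apply hpz
          have hu3 : u ∈ centralizer ({pp z K hK y} : Set G) := hu2
          rw [mem_centralizer_singleton_iff, h] at hu3
          exact hu3.symm
      rw [h3, h2, Subgroup.card_bot, mul_one] at h1
      exact h1
    refine sg_general (C := {1}) (E := (zpowers z).prod (⊤ : Subgroup C2)) (y := y) hV4 ?_ ?_ ?_ _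
      (Gam x E) rfl hGp ?_ ?_ ?_ g hg
    · intro u hu v hv
      have h1 := hcentral v hv u (hzzH u hu)
      have h2 : v⁻¹ * u * v = u := by
        rw [mul_assoc, ← h1]
        group
      rw [h2]
      exact inv_mul_cancel u
    · intro u hu
      apply Prod.ext
      · rcases mem_zpowers_two hS.hz2 (Subgroup.mem_prod.mp hu).1 with h | h
        · change u.1 * u.1 = 1
          rw [h, one_mul]
        · change u.1 * u.1 = 1
          rw [h]
          exact hS.hz2
      · exact c2_sq _
    · intro L hLE hLi hLs c hc hcL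
      rcases hc with rfl
      exact sg_one _
    · intro u hu
      refine Subgroup.mem_prod.mpr ⟨?_, mem_top _⟩
      have h1 : zpowers z ≤ zpowers x ⊔ E :=
        ((Subgroup.zpowers_le).mpr hS.hzE).trans le_sup_right
      exact h1 (Subgroup.mem_prod.mp hu).1
    · intro s hs e he
      have h1 := hcentral e he s (hGH s hs)
      have h2 : s⁻¹ * e * s = e := by
        rw [mul_assoc, h1]
        group
      rw [h2]
      exact he
    · intro s hs _ e he
      have h1 := hcentral e he s (hGH s hs)
      have h2 : e⁻¹ * s * e = s := by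
        rw [mul_assoc, ← h1]
        group
      rw [h2]
      exact inv_mul_cancel s

end Cfsg.Agent.Lib.SignCover
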